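import Cfsg.Agent.H480.Kill
import Cfsg.Agent.H480.Reduce
import Cfsg.Agent.ClassicalGeometry.AutPSL.Main
import Cfsg.Agent.ClassicalGeometry.AutPSL.SylowU
import Cfsg.Agent.H597.L2Aut
import Cfsg.Agent.ClassicalGeometry.PSLTorus
import Cfsg.Agent.ClassicalGeometry.DicksonSubfield
import Cfsg.Agent.Lib.FieldAutCard
import Cfsg.Agent.FastGrp
import Cfsg.Agent.Prune
set_option linter.all false

section
prune_inst 0x7ffdbcfbfff9addedfff7e7faef6dffdfdb97fffffdff9cbffe069ef2fdf6b0acde5ab8d8feb52ff1ee3629410f87b93fffffeffea6ffc7ffffdfdf45ffbff9fedf7bd0851f688340fbc0fff03f0778e7f3fffffffffffffffffffffffffffbeffffffffffff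

-- part: H480/Row
section
set_option linter.all false
open scoped Cfsg.Agent.FastGrp

/-!
# Nilpotent minimal covers: the rows (helper480, S3925, S3926)

`Row S` : no finite group `G` with a normal subgroup `K ≅ S`, `K` simple nonabelian, `C_G(K) = 1`, `G / K` cyclic,
has a nilpotent minimal cover.
-/

set_option autoImplicit false

namespace Cfsg.Agent.H480

open Subgroup

universe u v w

/-- the groups `G` to be excluded for the simple group `S` -/
def Row (S : Type v) [Group S] : Prop :=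
  ∀ (G : Type u) [Group G] [Finite G] (K : Subgroup G) (_ : K.Normal), IsSimpleGroup ↥K →
    ¬ IsMulCommutative ↥K → centralizer (K : Set G) = ⊥ → IsCyclic (G ⧸ K) → (S ≃* ↥K) →
    ∀ 𝓐 : Finset (Subgroup G), ¬ NMC 𝓐

theorem Row.congr {S : Type v} {T : Type w} [Group S] [Group T] (e : S ≃* T) (h : Row.{u} S) : Row.{u} T :=
  fun G _ _ K hK hs hna hc hcyc f => h G K hK hs hna hc hcyc (e.trans f)

theorem Row.of_kill {S : Type v} [Group S] (h : Kill S) : Row.{u} S := by
  intro G _ _ K hK hs hna hc hcyc f 𝓐 hA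
  refine hA.not_kill ?_ K (h.congr f)
  rw [eq_bot_iff, ← hc]
  exact center_le_centralizer _

theorem solvable_of_rows (h : ∀ (S : Type u) [Group S] [Finite S], IsSimpleGroup S → ¬ IsMulCommutative S → Row.{u} S)
    {G : Type u} [Group G] [Finite G] {𝓐 : Finset (Subgroup G)} (hA : NMC 𝓐) : Group.IsSolvable G := by
  refine solvable_of_nmc ?_ _ G rfl 𝓐 hA
  intro G _ _ S hS hs hna hc hcyc 𝓐
  exact h ↥S hs hna G S hS hs hna hc hcyc (MulEquiv.refl _) 𝓐

end Cfsg.Agent.H480
end

-- part: H480/Sl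
section
prune_inst 0x24104000452212000818051092000024200000020043400189610102014842202506260108500411c8848c506004000000100100000000000020080000040120800242009348a10426000f801080000000000000000000000000000000000000000000000
set_option linter.all false
open scoped Cfsg.Agent.FastGrp

/-!
# Nilpotent minimal covers: `SL₂` in the centralizer (helper480, S3925, S3926)
-/

set_option autoImplicit false

namespace Cfsg.Agent.H480

open Subgroup Matrix

theorem not_nilpotent_of_coprime {S : Type*} [Group S] {D : Subgroup S} {a b : S} (ha : a ∈ D) (hb : b ∈ D)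
    {m n : ℕ} (h : m.Coprime n) (ham : a ^ m = 1) (hbn : b ^ n = 1) (hab : a * b ≠ b * a) :
    ¬ Group.IsNilpotent ↥D := by
  intro hn
  apply hab
  have h3 : Commute (⟨a, ha⟩ : ↥D) ⟨b, hb⟩ :=
    Lib.NilpotentCoprime.commute_of_coprime_orderOf (by
      rw [← orderOf_coe, ← orderOf_coe]
      exact Nat.Coprime.coprime_dvd_left (orderOf_dvd_of_pow_eq_one ham)
        (Nat.Coprime.coprime_dvd_right (orderOf_dvd_of_pow_eq_one hbn) h))
  exact congrArg Subtype.val h3.eq

variable {F : Type*} [Field F]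

/-- the upper transvection -/
def uu (F : Type*) [Field F] : SpecialLinearGroup (Fin 2) F := ⟨!![1, 1; 0, 1], by simp [det_fin_two]⟩
/-- the lower transvection -/
def ll (F : Type*) [Field F] : SpecialLinearGroup (Fin 2) F := ⟨!![1, 0; -1, 1], by simp [det_fin_two]⟩
/-- the Weyl element -/
def ww (F : Type*) [Field F] : SpecialLinearGroup (Fin 2) F := ⟨!![0, 1; -1, 0], by simp [det_fin_two]⟩

theorem uu_coe : ((uu F : SpecialLinearGroup (Fin 2) F) : Matrix (Fin 2) (Fin 2) F) = !![1, 1; 0, 1] := rfl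
theorem ll_coe : ((ll F : SpecialLinearGroup (Fin 2) F) : Matrix (Fin 2) (Fin 2) F) = !![1, 0; -1, 1] := rfl
theorem ww_coe : ((ww F : SpecialLinearGroup (Fin 2) F) : Matrix (Fin 2) (Fin 2) F) = !![0, 1; -1, 0] := rfl

theorem ww_uu : ww F * uu F * (ww F)⁻¹ = ll F := by
  rw [mul_inv_eq_iff_eq_mul]
  ext i j; fin_cases i <;> fin_cases j <;> simp [uu_coe, ll_coe, ww_coe]

theorem uu_ll_uu : uu F * ll F * uu F = ww F := by
  ext i j; fin_cases i <;> fin_cases j <;> simp [uu_coe, ll_coe, ww_coe]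

theorem uu_pow (n : ℕ) : (!![1, 1; 0, 1] : Matrix (Fin 2) (Fin 2) F) ^ n = !![1, (n : F); 0, 1] := by
  induction n with
  | zero => ext i j; fin_cases i <;> fin_cases j <;> simp
  | succ n ih =>
    rw [pow_succ, ih]
    ext i j; fin_cases i <;> fin_cases j <;> simp [add_comm]

theorem uu_pow_char (p : ℕ) [CharP F p] : uu F ^ p = 1 := by
  have h : (uu F : Matrix (Fin 2) (Fin 2) F) ^ p = 1 := by
    rw [uu_coe, uu_pow, CharP.cast_eq_zero]
    ext i j; fin_cases i <;> fin_cases j <;> simp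
  exact Subtype.ext ((Matrix.SpecialLinearGroup.coe_pow (uu F) p).trans h)

theorem ww_sq : ww F * ww F = -1 := by
  ext i j; fin_cases i <;> fin_cases j <;> simp [ww_coe]

theorem ul_cube : (uu F * ll F) ^ 3 = -1 := by
  rw [pow_succ, pow_two]
  ext i j; fin_cases i <;> fin_cases j <;> simp [uu_coe, ll_coe]

/-- **The conjugates of a transvection under `SL₂(F)` do not generate a nilpotent group.** -/
theorem not_nilpotent_of_sl {S : Type*} [Group S] {C : Subgroup S} (θ : SpecialLinearGroup (Fin 2) F →* S)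
    (hθ : ∀ A, θ A = 1 → A = 1 ∨ A = -1) (hw : θ (ww F) ∈ C) (p : ℕ) [hp : Fact p.Prime] [CharP F p] :
    ¬ Group.IsNilpotent ↥(closure (cjs C (θ (uu F)))) := by
  have hu : θ (uu F) ∈ closure (cjs C (θ (uu F))) := subset_closure (mem_cjs_self _ _)
  have hl : θ (ll F) ∈ closure (cjs C (θ (uu F))) :=
    subset_closure ⟨_, hw, by rw [← ww_uu, map_mul, map_mul, map_inv]⟩
  have hne : ∀ A B : SpecialLinearGroup (Fin 2) F, θ A = θ B → A = B ∨ A = -B := by
    intro A B h
    have h1 := hθ (A * B⁻¹) (by rw [map_mul, h, map_inv, mul_inv_cancel])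
    rcases h1 with h1 | h1
    · exact Or.inl (mul_inv_eq_one.1 h1)
    · right
      have h2 := mul_inv_eq_iff_eq_mul.1 h1
      rw [h2, neg_mul, one_mul]
  rcases hp.1.eq_two_or_odd' with rfl | hodd
  · have h2 : (2 : F) = 0 := CharTwo.two_eq_zero
    have hneg : (-1 : SpecialLinearGroup (Fin 2) F) = 1 := by
      ext i j
      fin_cases i <;> fin_cases j <;> simp [CharTwo.neg_eq]
    refine not_nilpotent_of_coprime (mul_mem hu hl) hu (m := 3) (n := 2) (by norm_num) ?_ ?_ ?_
    · rw [← map_mul, ← map_pow, ul_cube, hneg, map_one]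
    · rw [← map_pow, uu_pow_char 2, map_one]
    · intro h
      rw [← map_mul, ← map_mul, ← map_mul] at h
      rcases hne _ _ h with h1 | h1
      · have h3 := congrArg (fun A : SpecialLinearGroup (Fin 2) F => (A : Matrix (Fin 2) (Fin 2) F) 0 0) h1
        simp [uu_coe, ll_coe] at h3
      · have h3 := congrArg (fun A : SpecialLinearGroup (Fin 2) F => (A : Matrix (Fin 2) (Fin 2) F) 0 0) h1
        simp [uu_coe, ll_coe] at h3
  · have hww : θ (ww F) ∈ closure (cjs C (θ (uu F))) := by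
      rw [← uu_ll_uu, map_mul, map_mul]
      exact mul_mem (mul_mem hu hl) hu
    refine not_nilpotent_of_coprime hww hu (m := 4) (n := p) (by
      exact Nat.Coprime.pow_left 2 (hodd.coprime_two_left)) ?_ ?_ ?_
    · rw [← map_pow, show 4 = 2 * 2 from rfl, pow_mul, pow_two (ww F), ww_sq]
      simp
    · rw [← map_pow, uu_pow_char p, map_one]
    · intro h
      rw [← map_mul, ← map_mul] at h
      rcases hne _ _ h with h1 | h1
      · have h3 := congrArg (fun A : SpecialLinearGroup (Fin 2) F => (A : Matrix (Fin 2) (Fin 2) F) 0 0) h1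
        simp [uu_coe, ww_coe] at h3
      · have h3 := congrArg (fun A : SpecialLinearGroup (Fin 2) F => (A : Matrix (Fin 2) (Fin 2) F) 0 0) h1
        simp [uu_coe, ww_coe] at h3

end Cfsg.Agent.H480
end

-- part: H480/RankOne_mg
section
prune_inst 0x42040000000020000180510100020044800000000230001d9210d02080653212502270148800e1149122ae04000000000000059001000000020020040000120802b7080833ca90426000f80b887180c00000000000000000000000000041000000000000
set_option linter.all false
open scoped Cfsg.Agent.FastGrp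

-- part: H480/RankOne
section
/-!
# Nilpotent minimal covers: groups with two-transitive action of odd outer order (helper480, S3925, S3926)

* `fix_pair` : `x` of odd prime order `r` with exactly two fixed points on `Ω`, `|Ω| ≡ 2 (mod r)`, such that the
  `2`-elements commuting with `x` fix one of them: all nilpotent subgroups containing `x` do.
* `not_nmc_of_pair` : no nilpotent minimal cover.
-/

set_option autoImplicit false
set_option linter.unusedSectionVars false

namespace Cfsg.Agent.H480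

open Subgroup

universe u v

/-- the `p`-part and the `p'`-part of an element -/
theorem exists_parts {G : Type*} [Group G] [Finite G] (g : G) {p : ℕ} (hp : p.Prime) :
    ∃ s t : ℕ, g = g ^ s * g ^ t ∧ (∃ k : ℕ, (g ^ s) ^ p ^ k = 1) ∧ (orderOf (g ^ t)).Coprime p := by
  obtain ⟨k, m, hm, hkm⟩ := Nat.exists_eq_pow_mul_and_not_dvd (orderOf_pos g).ne' p hp.ne_one
  have hcop : (p ^ k).Coprime m := Nat.Coprime.pow_left k ((Nat.Prime.coprime_iff_not_dvd hp).2 hm)
  obtain ⟨s, hs1, hs2⟩ := Nat.chineseRemainder hcop 1 0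
  obtain ⟨t, ht1, ht2⟩ := Nat.chineseRemainder hcop 0 1
  refine ⟨s, t, ?_, ⟨k, ?_⟩, ?_⟩
  · rw [← pow_add]
    have h1 : s + t ≡ 1 [MOD orderOf g] := by
      rw [hkm]
      refine (Nat.modEq_and_modEq_iff_modEq_mul hcop).1 ⟨?_, ?_⟩
      · simpa using hs1.add ht1
      · simpa using hs2.add ht2
    exact (pow_eq_self (pow_orderOf_eq_one g) h1).symm
  · rw [← pow_mul]
    obtain ⟨c, hc⟩ := (Nat.modEq_zero_iff_dvd).1 hs2
    rw [hc, show m * c * p ^ k = (p ^ k * m) * c by ring, ← hkm, pow_mul, pow_orderOf_eq_one, one_pow]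
  · obtain ⟨c, hc⟩ := (Nat.modEq_zero_iff_dvd).1 ht1
    have h1 : (g ^ t) ^ m = 1 := by
      rw [← pow_mul, hc, show p ^ k * c * m = (p ^ k * m) * c by ring, ← hkm, pow_mul, pow_orderOf_eq_one, one_pow]
    exact Nat.Coprime.coprime_dvd_left (orderOf_dvd_of_pow_eq_one h1) ((Nat.Prime.coprime_iff_not_dvd hp).2 hm).symm

section

variable {G : Type*} [Group G] [Finite G] {Ω : Type*} [Finite Ω] [MulAction G Ω]

theorem fix_pair {r : ℕ} [hr : Fact r.Prime] (hr2 : r ≠ 2) (hΩ : Nat.card Ω ≡ 2 [MOD r]) {x : G}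
    (hx : orderOf x = r) {a b : Ω} (hfix : ∀ c : Ω, x • c = c → c = a ∨ c = b) (hab : a ≠ b)
    (hC : ∀ g : G, (∃ k : ℕ, g ^ 2 ^ k = 1) → g * x = x * g → g • a = a)
    {A : Subgroup G} (hA : Group.IsNilpotent ↥A) (hxA : x ∈ A) {g : G} (hg : g ∈ A) : g • a = a := by
  obtain ⟨P⟩ : Nonempty (Sylow r ↥A) := inferInstance
  have hPn : (P : Subgroup ↥A).Normal := by
    have := (Group.isNilpotent_of_finite_tfae (G := ↥A)).out 0 3
    exact this.1 hA r hr P
  have hel : ∀ b : ↥A, (∃ i : ℕ, b ^ r ^ i = 1) → b ∈ (P : Subgroup ↥A) := by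
    rintro b ⟨i, hi⟩
    have h2 : IsPGroup r ↥(zpowers b) := by
      rw [IsPGroup]
      rintro ⟨c, hc⟩
      obtain ⟨n, rfl⟩ := mem_zpowers_iff.1 hc
      exact ⟨i, Subtype.ext (by
        have h3 : (b ^ n) ^ r ^ i = (b ^ r ^ i) ^ n := by
          rw [← zpow_natCast, ← zpow_natCast, ← zpow_mul, ← zpow_mul, mul_comm]
        simpa only [hi, _root_.SubmonoidClass.mk_pow, _root_.OneMemClass.coe_one, _root_.one_zpow] using h3)⟩
    obtain ⟨Q, hQ⟩ := h2.exists_le_sylow
    have hQP : Q = P := by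
      have hss := Sylow.unique_of_normal P hPn
      exact (hss.uniq Q).trans (hss.uniq P).symm
    rw [← hQP]
    exact hQ (mem_zpowers b)
  set Q : Subgroup G := (P : Subgroup ↥A).map A.subtype with hQ
  have hQp : IsPGroup r Q := P.isPGroup'.map A.subtype
  have hmemQ : ∀ y ∈ A, (∃ i : ℕ, y ^ r ^ i = 1) → y ∈ Q := by
    rintro y hy ⟨i, hi⟩
    exact ⟨⟨y, hy⟩, hel _ ⟨i, Subtype.ext (by simpa only [_root_.SubmonoidClass.mk_pow, _root_.OneMemClass.coe_one] using hi)⟩, rfl⟩
  have hxQ : x ∈ Q := hmemQ x hxA ⟨1, by rw [pow_one, ← hx, pow_orderOf_eq_one]⟩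
  -- the fixed points of `Q`
  have hcard := hQp.card_modEq_card_fixedPoints Ω
  have hsub : MulAction.fixedPoints Q Ω ⊆ {a, b} := by
    intro c hc
    exact hfix c (hc ⟨x, hxQ⟩)
  have hfin : ({a, b} : Set Ω).Finite := Set.toFinite _
  have hle : Nat.card (MulAction.fixedPoints Q Ω) ≤ 2 := by
    have h1 := Set.ncard_le_ncard hsub hfin
    rw [Set.ncard_pair hab] at h1
    exact h1
  have hr3 : 3 ≤ r := by
    have := hr.1.two_le
    omega
  have h2 : Nat.card (MulAction.fixedPoints Q Ω) = 2 := by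
    have h3 : Nat.card (MulAction.fixedPoints Q Ω) ≡ 2 [MOD r] := hcard.symm.trans hΩ
    have h4 := h3
    rw [Nat.ModEq, Nat.mod_eq_of_lt (by omega), Nat.mod_eq_of_lt (by omega)] at h4
    exact h4
  have heq : MulAction.fixedPoints Q Ω = {a, b} := by
    refine Set.eq_of_subset_of_ncard_le hsub ?_ hfin
    rw [Set.ncard_pair hab]
    exact h2.ge
  have haQ : a ∈ MulAction.fixedPoints Q Ω := by rw [heq]; exact Set.mem_insert _ _
  have hbQ : b ∈ MulAction.fixedPoints Q Ω := by rw [heq]; exact Set.mem_insert_of_mem _ rfl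
  have hxa : x • a = a := haQ ⟨x, hxQ⟩
  have hxb : x • b = b := hbQ ⟨x, hxQ⟩
  -- the parts of `g`
  obtain ⟨s, t, hst, hs, ht⟩ := exists_parts g hr.1
  have h5 : g ^ s • a = a := haQ ⟨g ^ s, hmemQ _ (A.pow_mem hg s) hs⟩
  have hcomm : ∀ y ∈ A, (orderOf y).Coprime r → y * x = x * y := by
    intro y hy hyr
    have h3 : Commute (⟨y, hy⟩ : ↥A) ⟨x, hxA⟩ :=
      Lib.NilpotentCoprime.commute_of_coprime_orderOf (by
        rw [← orderOf_coe, ← orderOf_coe]
        change (orderOf y).Coprime (orderOf x)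
        rw [hx]
        exact hyr)
    exact congrArg Subtype.val h3.eq
  have h6 : ∀ y ∈ A, (orderOf y).Coprime r → y • a = a := by
    intro y hy hyr
    obtain ⟨s', t', hst', hs', ht'⟩ := exists_parts y Nat.prime_two
    have hcop : ∀ n : ℕ, (orderOf (y ^ n)).Coprime r := fun n =>
      Nat.Coprime.coprime_dvd_left (orderOf_pow_dvd n) hyr
    have h7 : y ^ s' • a = a := hC _ hs' (hcomm _ (A.pow_mem hy _) (hcop s'))
    have h8 : y ^ t' • a = a := by
      set h := y ^ t' with hh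
      have hhx := hcomm _ (A.pow_mem hy t') (hcop t')
      rw [← hh] at hhx
      have h9 : x • (h • a) = h • a := by rw [← mul_smul, ← hhx, mul_smul, hxa]
      have h10 : x • (h • b) = h • b := by rw [← mul_smul, ← hhx, mul_smul, hxb]
      rcases hfix _ h9 with h11 | h11
      · exact h11
      · exfalso
        have h12 : h • b = a := by
          rcases hfix _ h10 with h13 | h13
          · exact h13
          · exact absurd (MulAction.injective h (h11.trans h13.symm)) hab
        have h14 : ∀ n : ℕ, h ^ (2 * n) • b = b := by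
          intro n
          induction n with
          | zero => simp
          | succ n ih =>
            rw [mul_add, mul_one, pow_add, mul_smul, pow_two, mul_smul, h12, h11, ih]
        have hodd : Odd (orderOf h) := by
          rw [← Nat.not_even_iff_odd, even_iff_two_dvd]
          exact (Nat.Prime.coprime_iff_not_dvd Nat.prime_two).1 ht'.symm
        obtain ⟨n, hn⟩ := hodd
        have h15 : h ^ (2 * n) • (h • a) = a := by
          rw [← mul_smul, ← pow_succ, ← hn, pow_orderOf_eq_one, one_smul]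
        rw [h11, h14] at h15
        exact hab h15.symm
    rw [hst', mul_smul, h8, h7]
  rw [hst, mul_smul, h6 _ (A.pow_mem hg t) ht, h5]

/-- **No nilpotent minimal cover.** -/
theorem not_nmc_of_pair {r : ℕ} [hr : Fact r.Prime] (hr2 : r ≠ 2) (hΩ : Nat.card Ω ≡ 2 [MOD r]) {x : G}
    (hx : orderOf x = r) {a b : Ω} (hfix : ∀ c : Ω, x • c = c → c = a ∨ c = b) (hab : a ≠ b)
    (hC : ∀ g : G, (∃ k : ℕ, g ^ 2 ^ k = 1) → g * x = x * g → g • a = a) (htop : ∃ g : G, g • a ≠ a)
    {u : G} (hu : u • a = a) (hcop : (orderOf (u * x * u⁻¹ * x⁻¹)).Coprime r)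
    (hne : (u * x * u⁻¹ * x⁻¹) * x ≠ x * (u * x * u⁻¹ * x⁻¹)) {𝓐 : Finset (Subgroup G)} (h : NMC 𝓐) : False := by
  have h1 : MulAction.stabilizer G a ≠ ⊤ := by
    intro ht
    obtain ⟨g, hg⟩ := htop
    apply hg
    have : g ∈ MulAction.stabilizer G a := by rw [ht]; exact mem_top g
    exact this
  refine not_nilpotent_of_commutator (C := MulAction.stabilizer G a) hu (by rw [hx]; exact hcop) hne
    (h.nilpotent_of_le h1 ?_)
  intro A hA hxA g hg
  exact fix_pair hr2 hΩ hx hfix hab hC hA hxA hg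

end

/-- an element of prime order with exactly two fixed points -/
theorem card_modEq_two {G : Type*} [Group G] [Finite G] {Ω : Type*} [Finite Ω] [MulAction G Ω] {r : ℕ}
    [hr : Fact r.Prime] {x : G} (hx : orderOf x = r) {a b : Ω} (hab : a ≠ b)
    (hfix : ∀ c : Ω, x • c = c ↔ c = a ∨ c = b) : Nat.card Ω ≡ 2 [MOD r] := by
  have hp : IsPGroup r (zpowers x) := IsPGroup.of_card (n := 1) (by rw [Nat.card_zpowers, hx, pow_one])
  have h1 := hp.card_modEq_card_fixedPoints Ω
  have h2 : MulAction.fixedPoints (zpowers x) Ω = {a, b} := by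
    ext c
    constructor
    · intro hc
      exact (hfix c).1 (hc ⟨x, mem_zpowers x⟩)
    · intro hc
      have h3 : x • c = c := (hfix c).2 hc
      rintro ⟨y, hy⟩
      have h4 : zpowers x ≤ MulAction.stabilizer G c := by
        rw [zpowers_le]
        exact h3
      exact h4 hy
  have h3 : Nat.card (MulAction.fixedPoints (zpowers x) Ω) = 2 := by
    change Set.ncard (MulAction.fixedPoints (zpowers x) Ω) = 2
    rw [h2, Set.ncard_pair hab]
  rw [h3] at h1
  exact h1

/-- data on the Sylow `p`-subgroups -/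
def Pair (p r : ℕ) (S : Type*) [Group S] : Prop :=
  r ≠ 2 ∧ ∃ (x u : S) (P Q : Sylow p S), orderOf x = r ∧ P ≠ Q ∧
    (∀ R : Sylow p S, x ∈ normalizer ((R : Subgroup S) : Set S) ↔ R = P ∨ R = Q) ∧
    (∀ g : S, (∃ k : ℕ, g ^ 2 ^ k = 1) → g * x = x * g → g ∈ normalizer ((P : Subgroup S) : Set S)) ∧
    u ∈ normalizer ((P : Subgroup S) : Set S) ∧ (orderOf (u * x * u⁻¹ * x⁻¹)).Coprime r ∧
    (u * x * u⁻¹ * x⁻¹) * x ≠ x * (u * x * u⁻¹ * x⁻¹)

theorem Pair.not_nmc {S : Type v} [Group S] [Finite S] {p r : ℕ} [hp : Fact p.Prime] [hr : Fact r.Prime]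
    (h : Pair p r S) {G : Type u} [Group G] [Finite G] {K : Subgroup G} [K.Normal] (f : S ≃* ↥K)
    (h2 : ∀ g : G, (∃ k : ℕ, g ^ 2 ^ k = 1) → g ∈ K) {𝓐 : Finset (Subgroup G)} (hA : NMC 𝓐) : False := by
  obtain ⟨hr2, x, u, P, Q, hx, hPQ, hfix, hC, hu, hcop, hne⟩ := h
  let φ : G →* MulAut S := (MulAut.congr f.symm).toMonoidHom.comp MulAut.conjNormal
  have hφ : ∀ s : S, φ (f s : G) = MulAut.conj s := by
    intro s
    ext t
    change f.symm (MulAut.conjNormal (f s : G) (f t)) = _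
    rw [MulEquiv.symm_apply_eq]
    apply Subtype.ext
    rw [MulAut.conjNormal_apply, MulAut.conj_apply]
    simp only [_root_.map_mul, _root_.map_inv, _root_.Subgroup.coe_mul, _root_.InvMemClass.coe_inv]
  let _ : MulAction G (Sylow p S) := MulAction.compHom _ φ
  have hsm : ∀ (s : S) (R : Sylow p S), (f s : G) • R = s • R := by
    intro s R
    change φ (f s : G) • R = s • R
    rw [hφ]
    rfl
  have hsm' : ∀ (s : S) (R : Sylow p S), (f s : G) • R = R ↔ s ∈ normalizer ((R : Subgroup S) : Set S) := by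
    intro s R
    rw [hsm]
    exact Sylow.smul_eq_iff_mem_normalizer
  have hinj : ∀ a b : S, (f a : G) = (f b : G) → a = b := fun a b hab => f.injective (Subtype.ext hab)
  have hord : ∀ a : S, orderOf (f a : G) = orderOf a := by
    intro a
    rw [orderOf_coe, MulEquiv.orderOf_eq]
  have hcomm : (f u : G) * (f x : G) * (f u : G)⁻¹ * (f x : G)⁻¹ = (f (u * x * u⁻¹ * x⁻¹) : G) := by
    simp only [_root_.map_mul, _root_.map_inv, _root_.Subgroup.coe_mul, _root_.InvMemClass.coe_inv]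
  have hcard : Nat.card (Sylow p S) ≡ 2 [MOD r] :=
    card_modEq_two (G := G) (x := (f x : G)) (by rw [hord]; exact hx) hPQ (fun R => (hsm' x R).trans (hfix R))
  refine not_nmc_of_pair (Ω := Sylow p S) hr2 hcard (x := (f x : G)) (by rw [hord]; exact hx) (a := P) (b := Q)
    (fun R hR => (hfix R).1 ((hsm' x R).1 hR)) hPQ ?_ ?_ (u := (f u : G)) ((hsm' u P).2 hu)
    (by rw [hcomm, hord]; exact hcop) ?_ hA
  · intro g hg hgx
    have hgK := h2 g hg
    obtain ⟨s, hs⟩ := f.surjective ⟨g, hgK⟩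
    have hgs : g = (f s : G) := by rw [hs]
    rw [hgs, hsm']
    obtain ⟨k, hk⟩ := hg
    refine hC s ⟨k, ?_⟩ ?_
    · apply hinj
      rw [map_pow, SubgroupClass.coe_pow, ← hgs, hk, map_one, coe_one]
    · apply hinj
      rw [map_mul, map_mul, coe_mul, coe_mul, ← hgs, hgx]
  · obtain ⟨s, hs⟩ := MulAction.exists_smul_eq S P Q
    refine ⟨(f s : G), ?_⟩
    rw [hsm, hs]
    exact hPQ.symm
  · rw [hcomm]
    intro h3
    apply hne
    apply hinj
    rw [map_mul f _ x, map_mul f x, coe_mul, coe_mul, h3]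

/-- The data in groups with a split `(B, N)`-pair of rank one. -/
theorem pair_of_bn {S : Type*} [Group S] [Finite S] {p r : ℕ} [hp : Fact p.Prime] [hr : Fact r.Prime]
    (P : Sylow p S) (T : Subgroup S) (w x : S) (hTP : T ≤ normalizer ((P : Subgroup S) : Set S))
    (hdis : ∀ t ∈ T, t ∈ (P : Subgroup S) → t = 1)
    (hbr : ∀ g : S, (∃ a ∈ (P : Subgroup S), ∃ t ∈ T, g = a * t) ∨
      (∃ a ∈ (P : Subgroup S), ∃ b ∈ (P : Subgroup S), ∃ t ∈ T, g = a * w * (b * t)))
    (hint : ∀ a ∈ (P : Subgroup S), w⁻¹ * a * w ∈ normalizer ((P : Subgroup S) : Set S) → a = 1)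
    (hwn : w⁻¹ * x * w ∈ T) (hwN : w ∉ normalizer ((P : Subgroup S) : Set S))
    (hx : orderOf x = r) (hr2 : r ≠ 2) (hrp : r ≠ p) (hxT : x ∈ T) (hxc : ∀ t ∈ T, t * x = x * t)
    (hcx : ∀ a ∈ (P : Subgroup S), x * a = a * x → a = 1) (hwx : w⁻¹ * x * w ≠ x)
    (hne : ∃ u ∈ (P : Subgroup S), u ≠ 1) : Pair p r S := by
  have hPN : (P : Subgroup S) ≤ normalizer ((P : Subgroup S) : Set S) := le_normalizer
  have hxP : ∀ a ∈ (P : Subgroup S), x * a * x⁻¹ ∈ (P : Subgroup S) := fun a ha =>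
    (mem_normalizer_iff.1 (hTP hxT) a).1 ha
  have hconj : ∀ (g : S) (R : Sylow p S), x ∈ normalizer (((g • R : Sylow p S) : Subgroup S) : Set S) ↔
      g⁻¹ * x * g ∈ normalizer ((R : Subgroup S) : Set S) := by
    intro g R
    have hs : ∀ (h : S) (R : Sylow p S), h ∈ normalizer ((R : Subgroup S) : Set S) ↔ h • R = R :=
      fun h R => Sylow.smul_eq_iff_mem_normalizer.symm
    rw [hs, hs, mul_smul, mul_smul, inv_smul_eq_iff]
  obtain ⟨u, huP, hu1⟩ := hne
  refine ⟨hr2, x, u, P, w • P, hx, ?_, ?_, ?_, hPN huP, ?_, ?_⟩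
  · intro h
    exact hwN (Sylow.smul_eq_iff_mem_normalizer.1 h.symm)
  · intro R
    constructor
    · intro hR
      obtain ⟨g, rfl⟩ := MulAction.exists_smul_eq S P R
      rcases hbr g with ⟨a, ha, t, ht, rfl⟩ | ⟨a, ha, b, hb, t, ht, rfl⟩
      · left
        exact Sylow.smul_eq_iff_mem_normalizer.2 (mul_mem (hPN ha) (hTP ht))
      · right
        have h1 : (b * t) • P = P := Sylow.smul_eq_iff_mem_normalizer.2 (mul_mem (hPN hb) (hTP ht))
        rw [mul_smul, h1] at hR ⊢
        rw [hconj] at hR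
        -- `a` commutes with `x`
        have h2 : (a * w)⁻¹ * x * (a * w) = (w⁻¹ * (a⁻¹ * (x * a * x⁻¹)) * w) * (w⁻¹ * x * w) := by group
        rw [h2] at hR
        have h3 := (mul_mem_cancel_right (hTP hwn)).1 hR
        have h4 := hint _ (mul_mem (inv_mem ha) (hxP a ha)) h3
        have h5 : x * a = a * x := by
          have h6 := inv_mul_eq_one.1 h4
          rw [eq_mul_inv_iff_mul_eq] at h6
          exact h6.symm
        rw [hcx a ha h5, one_mul]
    · rintro (rfl | rfl)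
      · exact hTP hxT
      · rw [hconj]
        exact hTP hwn
  · intro g _ hgx
    rcases hbr g with ⟨a, ha, t, ht, rfl⟩ | ⟨a, ha, b, hb, t, ht, rfl⟩
    · exact mul_mem (hPN ha) (hTP ht)
    · exfalso
      -- `a = 1`
      have h0 : x ∈ normalizer ((((a * w) • P : Sylow p S) : Subgroup S) : Set S) := by
        have h1 : (b * t) • P = P := Sylow.smul_eq_iff_mem_normalizer.2 (mul_mem (hPN hb) (hTP ht))
        have h2 : (a * w) • P = (a * w * (b * t)) • P := by rw [mul_smul (a * w), h1]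
        rw [h2, hconj]
        have h3 : (a * w * (b * t))⁻¹ * x * (a * w * (b * t)) = x := by
          rw [mul_assoc _ x, ← hgx]
          group
        rw [h3]
        exact hTP hxT
      have ha1 : a = 1 := by
        rw [hconj] at h0
        have h2 : (a * w)⁻¹ * x * (a * w) = (w⁻¹ * (a⁻¹ * (x * a * x⁻¹)) * w) * (w⁻¹ * x * w) := by group
        rw [h2] at h0
        have h3 := (mul_mem_cancel_right (hTP hwn)).1 h0
        have h4 := hint _ (mul_mem (inv_mem ha) (hxP a ha)) h3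
        have h5 : x * a = a * x := by
          have h6 := inv_mul_eq_one.1 h4
          rw [eq_mul_inv_iff_mul_eq] at h6
          exact h6.symm
        exact hcx a ha h5
      subst ha1
      rw [one_mul] at hgx
      -- `b x b⁻¹ = w⁻¹ x w`
      have h1 : w⁻¹ * x * w = b * x * b⁻¹ := by
        have h2 : w * (b * t) * x = w * (b * x) * t := by
          rw [mul_assoc w, mul_assoc b t x, hxc t ht]
          group
        rw [h2] at hgx
        have h3 : w * (b * x) = x * w * b := by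
          apply mul_right_cancel (b := t)
          rw [hgx]
          group
        rw [eq_mul_inv_iff_mul_eq, mul_assoc, mul_assoc, ← mul_assoc x, ← h3]
        group
      have h2 : (w⁻¹ * x * w) * x⁻¹ ∈ (P : Subgroup S) := by
        rw [h1]
        have h3 : b * x * b⁻¹ * x⁻¹ = b * (x * b⁻¹ * x⁻¹) := by group
        rw [h3]
        exact mul_mem hb (hxP _ (inv_mem hb))
      exact hwx (mul_inv_eq_one.1 (hdis _ (mul_mem hwn (inv_mem hxT)) h2))
  · have h1 : u * x * u⁻¹ * x⁻¹ ∈ (P : Subgroup S) := by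
      rw [show u * x * u⁻¹ * x⁻¹ = u * (x * u⁻¹ * x⁻¹) by group]
      exact mul_mem huP (hxP _ (inv_mem huP))
    obtain ⟨k, hk⟩ := P.isPGroup' ⟨_, h1⟩
    have h2 : (u * x * u⁻¹ * x⁻¹) ^ p ^ k = 1 := by simpa only [_root_.SubmonoidClass.mk_pow, _root_.OneMemClass.coe_one] using congrArg Subtype.val hk
    exact Nat.Coprime.coprime_dvd_left (orderOf_dvd_of_pow_eq_one h2)
      (Nat.Coprime.pow_left k ((Nat.coprime_primes hp.1 hr.1).2 hrp.symm))
  · intro h
    have h1 : u * x * u⁻¹ * x⁻¹ ∈ (P : Subgroup S) := by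
      rw [show u * x * u⁻¹ * x⁻¹ = u * (x * u⁻¹ * x⁻¹) by group]
      exact mul_mem huP (hxP _ (inv_mem huP))
    have h2 := hcx _ h1 h.symm
    have h3 : u * x = x * u := by
      have h4 := mul_inv_eq_one.1 h2
      rw [mul_inv_eq_iff_eq_mul] at h4
      exact h4
    exact hu1 (hcx u huP h3.symm)

end Cfsg.Agent.H480
end

-- part: H480/Conj
section
/-!
# The action of `G` on a normal subgroup isomorphic to `S` (helper480, S3925, S3926)
-/

set_option autoImplicit false

namespace Cfsg.Agent.H480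

open Subgroup

universe u v

section

variable {S : Type v} [Group S] {G : Type u} [Group G] {K : Subgroup G} [K.Normal] (f : S ≃* ↥K)

/-- the conjugation action, transported to `S` -/
def act : G →* MulAut S := (MulAut.congr f.symm).toMonoidHom.comp MulAut.conjNormal

theorem act_coe (s : S) : act f (f s : G) = MulAut.conj s := by
  ext t
  change f.symm (MulAut.conjNormal (f s : G) (f t)) = _
  rw [MulEquiv.symm_apply_eq]
  apply Subtype.ext
  rw [MulAut.conjNormal_apply, MulAut.conj_apply]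
  simp only [_root_.map_mul, _root_.map_inv, _root_.Subgroup.coe_mul, _root_.InvMemClass.coe_inv]

theorem coe_act (g : G) (s : S) : (f (act f g s) : G) = g * f s * g⁻¹ := by
  change (f (f.symm (MulAut.conjNormal g (f s))) : G) = _
  rw [MulEquiv.apply_symm_apply, MulAut.conjNormal_apply]

theorem act_injective (hc : centralizer (K : Set G) = ⊥) : Function.Injective (act f) := by
  rw [injective_iff_map_eq_one]
  intro g hg
  have h1 : g ∈ centralizer (K : Set G) := by
    rw [mem_centralizer_iff]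
    intro k hk
    obtain ⟨s, hs⟩ := f.surjective ⟨k, hk⟩
    have h2 := coe_act f g s
    rw [hg, MulAut.one_apply, hs] at h2
    exact (eq_mul_inv_iff_mul_eq.1 h2)
  rwa [hc, mem_bot] at h1

theorem act_mem (hc : centralizer (K : Set G) = ⊥) {g : G} {s : S} (h : act f g = MulAut.conj s) : g ∈ K := by
  have h1 : g = (f s : G) := act_injective f hc (by rw [h, act_coe])
  rw [h1]
  exact (f s).2

theorem act_mem_iff (hc : centralizer (K : Set G) = ⊥) {g : G} : g ∈ K ↔ ∃ s, act f g = MulAut.conj s := by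
  constructor
  · intro hg
    obtain ⟨s, hs⟩ := f.surjective ⟨g, hg⟩
    refine ⟨s, ?_⟩
    rw [← act_coe f, hs]
  · rintro ⟨s, h⟩
    exact act_mem f hc h

theorem act_comm {g : G} {s : S} (h : g * (f s : G) = (f s : G) * g) : act f g s = s := by
  apply f.injective
  apply Subtype.ext
  rw [coe_act, h, mul_inv_cancel_right]

end

/-- a normal subgroup of prime index in a group with a cyclic quotient -/
theorem exists_index_of_cyclic {G : Type u} [Group G] [Finite G] (K : Subgroup G) [hK : K.Normal] (hc : IsCyclic (G ⧸ K))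
    {r : ℕ} (hr : r.Prime) (hrd : r ∣ K.index) : ∃ N : Subgroup G, N.Normal ∧ K ≤ N ∧ N.index = r := by
  have hcc : ∀ a b : G ⧸ K, a * b = b * a := by
    have := IsCyclic.isMulCommutative (α := G ⧸ K)
    exact this.is_comm.comm
  let cg : CommGroup (G ⧸ K) := { (inferInstance : Group (G ⧸ K)) with mul_comm := hcc }
  have h1 := IsCyclic.index_powMonoidHom_range (G := G ⧸ K) r
  refine ⟨(powMonoidHom (α := G ⧸ K) r).range.comap (QuotientGroup.mk' K), inferInstance, ?_, ?_⟩
  · intro k hk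
    rw [mem_comap, QuotientGroup.mk'_apply, (QuotientGroup.eq_one_iff k).2 hk]
    exact one_mem _
  · rw [index_comap_of_surjective _ (QuotientGroup.mk'_surjective K), h1]
    exact Nat.gcd_eq_right hrd

theorem NMC.congr {G : Type*} {H : Type*} [Group G] [Group H] [Finite G] {𝓐 : Finset (Subgroup G)} (h : NMC 𝓐)
    (e : G ≃* H) : ∃ 𝓑 : Finset (Subgroup H), NMC 𝓑 := by
  classical
  have hm : ∀ A : Subgroup G, A.map e.toMonoidHom = ⊤ → A = ⊤ := by
    intro A hA
    rw [eq_top_iff]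
    intro x _
    have h1 : e x ∈ A.map e.toMonoidHom := by rw [hA]; exact mem_top _
    obtain ⟨y, hy, hxy⟩ := h1
    rw [← e.injective hxy]
    exact hy
  refine ⟨𝓐.image (fun A => A.map e.toMonoidHom), ⟨⟨?_, ?_⟩, ?_, ?_⟩⟩
  · intro B hB
    obtain ⟨A, hA, rfl⟩ := Finset.mem_image.1 hB
    exact fun h1 => h.cov.1 A hA (hm A h1)
  · intro g
    obtain ⟨A, hA, hg⟩ := h.cov.2 (e.symm g)
    exact ⟨_, Finset.mem_image_of_mem _ hA, ⟨_, hg, e.apply_symm_apply g⟩⟩
  · intro 𝓑 hB
    have h1 := h.min (𝓑.image (fun B => B.comap e.toMonoidHom)) ⟨by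
      intro A hA
      obtain ⟨B, hBB, rfl⟩ := Finset.mem_image.1 hA
      intro h1
      apply hB.1 B hBB
      rw [eq_top_iff]
      intro x _
      have h2 : e.symm x ∈ B.comap e.toMonoidHom := by rw [h1]; exact mem_top _
      have h3 : e (e.symm x) ∈ B := h2
      rwa [e.apply_symm_apply] at h3, by
      intro g
      obtain ⟨B, hBB, hg⟩ := hB.2 (e g)
      exact ⟨_, Finset.mem_image_of_mem _ hBB, hg⟩⟩
    have h2 : (𝓐.image (fun A => A.map e.toMonoidHom)).card ≤ 𝓐.card := Finset.card_image_le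
    have h3 : (𝓑.image (fun B => B.comap e.toMonoidHom)).card ≤ 𝓑.card := Finset.card_image_le
    omega
  · intro B hB
    obtain ⟨A, hA, rfl⟩ := Finset.mem_image.1 hB
    exact Group.nilpotent_of_surjective (h := h.nil A hA) (e.toMonoidHom.subgroupMap A)
      (e.toMonoidHom.subgroupMap_surjective A)

/-- in an almost simple group there is no nilpotent normal subgroup -/
theorem no_nilpotent_normal {G : Type u} [Group G] [Finite G] (K : Subgroup G) [hK : K.Normal] (hs : IsSimpleGroup ↥K)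
    (hna : ¬ IsMulCommutative ↥K) (hc : centralizer (K : Set G) = ⊥) (N : Subgroup G) (hN : N.Normal)
    (hNn : Group.IsNilpotent ↥N) : N = ⊥ := by
  have h1 : (N.subgroupOf K) = ⊥ ∨ (N.subgroupOf K) = ⊤ := by
    have : (N.subgroupOf K).Normal := inferInstance
    exact this.eq_bot_or_eq_top
  rcases h1 with h1 | h1
  · rw [eq_bot_iff, ← hc]
    intro n hn
    rw [mem_centralizer_iff]
    intro k hk
    have h2 : k * n * k⁻¹ * n⁻¹ ∈ N ⊓ K := by
      refine ⟨N.mul_mem (hN.conj_mem n hn k) (N.inv_mem hn), ?_⟩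
      have h3 := K.mul_mem hk (hK.conj_mem k⁻¹ (K.inv_mem hk) n)
      have h4 : k * n * k⁻¹ * n⁻¹ = k * (n * k⁻¹ * n⁻¹) := by group
      rw [h4]
      exact h3
    have h3 : (⟨k * n * k⁻¹ * n⁻¹, h2.2⟩ : ↥K) ∈ N.subgroupOf K := h2.1
    rw [h1, mem_bot] at h3
    have h4 : k * n * k⁻¹ * n⁻¹ = 1 := congrArg Subtype.val h3
    exact mul_inv_eq_iff_eq_mul.1 (mul_inv_eq_one.1 h4)
  · exfalso
    have h2 : K ≤ N := by rwa [subgroupOf_eq_top] at h1
    have h3 := nilpotent_of_le h2 hNn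
    have h4 : center ↥K = ⊥ ∨ center ↥K = ⊤ := (inferInstance : (center ↥K).Normal).eq_bot_or_eq_top
    rcases h4 with h4 | h4
    · exact Group.IsNilpotent.center_ne_bot ↥K h4
    · exact hna ⟨⟨fun a b => ((mem_center_iff (G := ↥K)).1 (by rw [h4]; exact mem_top b) a)⟩⟩

end Cfsg.Agent.H480
end
end

-- part: H480/PslTwoOut
section
prune_inst 0x201000000400100000000000800000206800000200400000000008000001000000000000008000000000000000040000000000100000000000000000000400000000000000000000000000000000000000000000000000000000000000000000000000000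
set_option linter.all false
open scoped Cfsg.Agent.FastGrp

-- part: H480/PslTwo
section
/-!
# Nilpotent minimal covers: `PSL₂(q)`, the Borel subgroup (helper480, S3925, S3926)
-/

set_option autoImplicit false

namespace Cfsg.Agent.H480.PslTwo

open Subgroup Matrix
open Cfsg.Agent.ClassicalGeometry.AutPSL.Root
open Cfsg.Agent.ClassicalGeometry.AutPSL.SylowU

variable {F : Type*} [Field F]

/-- upper unitriangular -/
def xx (s : F) : Matrix.SpecialLinearGroup (Fin 2) F := ⟨!![1, s; 0, 1], by simp [det_fin_two]⟩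
/-- diagonal -/
def dd (a : Fˣ) : Matrix.SpecialLinearGroup (Fin 2) F :=
  ⟨!![(a : F), 0; 0, ((a⁻¹ : Fˣ) : F)], by simp [det_fin_two]⟩

theorem sl_ext2 {A B : Matrix.SpecialLinearGroup (Fin 2) F} (h00 : A 0 0 = B 0 0) (h01 : A 0 1 = B 0 1)
    (h10 : A 1 0 = B 1 0) (h11 : A 1 1 = B 1 1) : A = B := by
  ext i j
  fin_cases i <;> fin_cases j <;> assumption

theorem det2 (A : Matrix.SpecialLinearGroup (Fin 2) F) : A 0 0 * A 1 1 - A 0 1 * A 1 0 = 1 := by
  rw [← det_fin_two]
  exact A.2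

theorem coe_neg' (A : Matrix.SpecialLinearGroup (Fin 2) F) (i j : Fin 2) : (-A) i j = -(A i j) := by
  simp

theorem coe_mul' (A B : Matrix.SpecialLinearGroup (Fin 2) F) (i j : Fin 2) :
    (A * B) i j = A i 0 * B 0 j + A i 1 * B 1 j := by
  simp only [Matrix.mul_apply, Fin.sum_univ_two, _root_.Matrix.SpecialLinearGroup.coe_mul, _root_.Fin.isValue]

theorem pr_eq_iff {A B : Matrix.SpecialLinearGroup (Fin 2) F} : pr A = pr B ↔ A = B ∨ A = -B := by
  constructor
  · intro h
    obtain ⟨c, hc⟩ := exists_smul_of_pr_eq h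
    have h1 : c ^ 2 = 1 := by
      have h2 := B.2
      rw [hc, det_smul, A.2, Fintype.card_fin, mul_one] at h2
      exact h2
    rcases sq_eq_one_iff.1 h1 with h2 | h2
    · left
      apply Subtype.ext
      rw [hc, h2, one_smul]
    · right
      apply Subtype.ext
      rw [SpecialLinearGroup.coe_neg, hc, h2]
      simp
  · rintro (h | h)
    · rw [h]
    · refine pr_eq_of_smul (c := -1) ?_
      rw [h]
      simp

@[simp] theorem xx00 (s : F) : xx s 0 0 = 1 := rfl
@[simp] theorem xx01 (s : F) : xx s 0 1 = s := rfl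
@[simp] theorem xx10 (s : F) : xx s 1 0 = 0 := rfl
@[simp] theorem xx11 (s : F) : xx s 1 1 = 1 := rfl
@[simp] theorem dd00 (a : Fˣ) : dd a 0 0 = a := rfl
@[simp] theorem dd01 (a : Fˣ) : dd a 0 1 = 0 := rfl
@[simp] theorem dd10 (a : Fˣ) : dd a 1 0 = 0 := rfl
@[simp] theorem dd11 (a : Fˣ) : dd a 1 1 = ((a⁻¹ : Fˣ) : F) := rfl
@[simp] theorem ww00 : ww F 0 0 = 0 := rfl
@[simp] theorem ww01 : ww F 0 1 = 1 := rfl
@[simp] theorem ww10 : ww F 1 0 = -1 := rfl
@[simp] theorem ww11 : ww F 1 1 = 0 := rfl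

theorem xx_zero : xx (0 : F) = 1 := sl_ext2 (by simp) (by simp) (by simp) (by simp)

theorem xx_mul (s t : F) : xx s * xx t = xx (s + t) :=
  sl_ext2 (by simp [coe_mul']) (by simp [coe_mul', add_comm]) (by simp [coe_mul']) (by simp [coe_mul'])

theorem dd_mul (a b : Fˣ) : dd a * dd b = dd (a * b) :=
  sl_ext2 (by simp [coe_mul']) (by simp [coe_mul']) (by simp [coe_mul']) (by simp only [coe_mul', mul_comm, _root_.Fin.isValue, _root_.Cfsg.Agent.H480.PslTwo.dd10, _root_.Cfsg.Agent.H480.PslTwo.dd01, _root_.MulZeroClass.mul_zero, _root_.Cfsg.Agent.H480.PslTwo.dd11, _root_.Units.val_inv_eq_inv_val, _root_.zero_add, _root_.mul_inv_rev, _root_.Units.val_mul])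

theorem dd_one : dd (1 : Fˣ) = 1 := sl_ext2 (by simp) (by simp) (by simp) (by simp)

theorem dd_pow (a : Fˣ) (n : ℕ) : dd a ^ n = dd (a ^ n) := by
  induction n with
  | zero => rw [pow_zero, pow_zero, dd_one]
  | succ n ih => rw [pow_succ, ih, dd_mul, pow_succ]

theorem dd_inv (a : Fˣ) : (dd a)⁻¹ = dd a⁻¹ := by
  rw [inv_eq_iff_mul_eq_one, dd_mul, mul_inv_cancel, dd_one]

theorem mem_upper2 [Finite F] {g : Matrix.SpecialLinearGroup (Fin 2) F} : g ∈ upper 2 F ↔ ∃ s, g = xx s := by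
  rw [mem_upper]
  constructor
  · intro h
    refine ⟨g 0 1, sl_ext2 ?_ ?_ ?_ ?_⟩
    · simpa using h 0 0 le_rfl
    · rfl
    · simpa using h 1 0 (by decide)
    · simpa using h 1 1 le_rfl
  · rintro ⟨s, rfl⟩ i j hij
    fin_cases i <;> fin_cases j <;> simp_all

/-- the image of the upper unitriangular group -/
theorem mem_map_upper [Finite F] {x : Matrix.ProjectiveSpecialLinearGroup (Fin 2) F} :
    x ∈ (upper 2 F).map pr ↔ ∃ s : F, x = pr (xx s) := by
  constructor
  · rintro ⟨g, hg, rfl⟩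
    obtain ⟨s, rfl⟩ := mem_upper2.1 hg
    exact ⟨s, rfl⟩
  · rintro ⟨s, rfl⟩
    exact ⟨_, mem_upper2.2 ⟨s, rfl⟩, rfl⟩

theorem pr_mem_iff [Finite F] {g : Matrix.SpecialLinearGroup (Fin 2) F} :
    pr g ∈ (upper 2 F).map pr ↔ ∃ s : F, g = xx s ∨ g = -xx s := by
  rw [mem_map_upper]
  constructor
  · rintro ⟨s, h⟩
    exact ⟨s, pr_eq_iff.1 h⟩
  · rintro ⟨s, h⟩
    exact ⟨s, pr_eq_iff.2 h⟩

/-- the normaliser is the Borel subgroup -/
theorem norm_iff [Finite F] {g : Matrix.SpecialLinearGroup (Fin 2) F} :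
    pr g ∈ normalizer (((upper 2 F).map pr : Subgroup (Matrix.ProjectiveSpecialLinearGroup (Fin 2) F)) : Set _) ↔
      g 1 0 = 0 := by
  constructor
  · intro h
    have h1 := (mem_normalizer_iff.1 h (pr (xx 1))).1 (mem_map_upper.2 ⟨1, rfl⟩)
    rw [← map_inv, ← map_mul, ← map_mul, pr_mem_iff] at h1
    obtain ⟨s, hs⟩ := h1
    have h2 : (g * xx 1 * g⁻¹ : Matrix.SpecialLinearGroup (Fin 2) F) 1 0 = -(g 1 0) ^ 2 := by
      rw [coe_mul', coe_mul', coe_mul']
      simp only [adjugate_fin_two, _root_.Fin.isValue, _root_.Cfsg.Agent.H480.PslTwo.xx00, _root_.mul_one, _root_.Cfsg.Agent.H480.PslTwo.xx10, _root_.MulZeroClass.mul_zero, _root_.add_zero, _root_.Matrix.SpecialLinearGroup.coe_inv, _root_.Matrix.of_apply, _root_.Matrix.cons_val', _root_.Matrix.cons_val_zero, _root_.Matrix.cons_val_fin_one, _root_.Cfsg.Agent.H480.PslTwo.xx01, _root_.Cfsg.Agent.H480.PslTwo.xx11, _root_.Matrix.cons_val_one, _root_.mul_neg]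
      ring
    have h3 : (g * xx 1 * g⁻¹ : Matrix.SpecialLinearGroup (Fin 2) F) 1 0 = 0 := by
      rcases hs with h | h
      · rw [h, xx10]
      · rw [h, coe_neg', xx10, neg_zero]
    rw [h2, neg_eq_zero] at h3
    exact pow_eq_zero_iff (two_ne_zero) |>.1 h3
  · intro h
    have hdet := det2 g
    rw [h, mul_zero, sub_zero] at hdet
    have key : ∀ x ∈ (upper 2 F).map pr, ∀ g : Matrix.SpecialLinearGroup (Fin 2) F, g 1 0 = 0 →
        pr g * x * (pr g)⁻¹ ∈ (upper 2 F).map pr := by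
      intro x hx g h
      have hdet := det2 g
      rw [h, mul_zero, sub_zero] at hdet
      obtain ⟨s, rfl⟩ := mem_map_upper.1 hx
      refine mem_map_upper.2 ⟨g 0 0 ^ 2 * s, ?_⟩
      rw [← map_inv, ← map_mul, ← map_mul]
      congr 1
      rw [mul_inv_eq_iff_eq_mul]
      refine sl_ext2 ?_ ?_ ?_ ?_
      · simp [coe_mul', h]
      · simp only [coe_mul', xx01, xx11, xx00]
        linear_combination -(g 0 0 * s) * hdet
      · simp [coe_mul', h]
      · simp [coe_mul', h]
    rw [mem_normalizer_iff]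
    intro x
    constructor
    · intro hx
      exact key x hx g h
    · intro hx
      have h1 := key _ hx g⁻¹ (by simp [adjugate_fin_two, h])
      rw [map_inv] at h1
      have h2 : (pr g)⁻¹ * (pr g * x * (pr g)⁻¹) * (pr g)⁻¹⁻¹ = x := by group
      rwa [h2] at h1

/-- the diagonal subgroup -/
def TT (F : Type*) [Field F] : Subgroup (Matrix.ProjectiveSpecialLinearGroup (Fin 2) F) where
  carrier := {x | ∃ a : Fˣ, x = pr (dd a)}
  mul_mem' := by
    rintro _ _ ⟨a, rfl⟩ ⟨b, rfl⟩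
    exact ⟨a * b, by rw [← map_mul, dd_mul]⟩
  one_mem' := ⟨1, by rw [dd_one, map_one]⟩
  inv_mem' := by
    rintro _ ⟨a, rfl⟩
    exact ⟨a⁻¹, by rw [← map_inv, dd_inv]⟩

theorem bruhat (g : Matrix.SpecialLinearGroup (Fin 2) F) :
    (∃ s a, g = xx s * dd a) ∨ (∃ s t a, g = xx s * ww F * (xx t * dd a)) := by
  have hdet := det2 g
  by_cases h : g 1 0 = 0
  · left
    rw [h, mul_zero, sub_zero] at hdet
    have h0 : g 0 0 ≠ 0 := left_ne_zero_of_mul_eq_one hdet
    have h1 : g 1 1 = (g 0 0)⁻¹ := eq_inv_of_mul_eq_one_right hdet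
    refine ⟨g 0 1 * g 0 0, Units.mk0 _ h0, sl_ext2 ?_ ?_ ?_ ?_⟩
    · simp [coe_mul']
    · simp [coe_mul', h0]
    · simp [coe_mul', h]
    · simp [coe_mul', h1]
  · right
    refine ⟨g 0 0 / g 1 0, g 1 1 * g 1 0, Units.mk0 (-(g 1 0)) (neg_ne_zero.2 h), sl_ext2 ?_ ?_ ?_ ?_⟩
    · simp [coe_mul', h]
    · simp only [coe_mul', xx00, xx01, xx10, xx11, ww00, ww01, ww10, ww11, dd01, dd11]
      simp only [_root_.Fin.isValue, _root_.MulZeroClass.mul_zero, _root_.mul_neg, _root_.mul_one, _root_.zero_add, _root_.Units.val_inv_eq_inv_val, _root_.Units.val_mk0, _root_.inv_neg, _root_.neg_mul, _root_.neg_neg, _root_.add_zero, _root_.one_mul]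
      field_simp
      linear_combination -hdet
    · simp [coe_mul']
    · simp [coe_mul', h]

theorem inv00 (g : Matrix.SpecialLinearGroup (Fin 2) F) : g⁻¹ 0 0 = g 1 1 := by simp [adjugate_fin_two]
theorem inv01 (g : Matrix.SpecialLinearGroup (Fin 2) F) : g⁻¹ 0 1 = -g 0 1 := by simp [adjugate_fin_two]
theorem inv10 (g : Matrix.SpecialLinearGroup (Fin 2) F) : g⁻¹ 1 0 = -g 1 0 := by simp [adjugate_fin_two]
theorem inv11 (g : Matrix.SpecialLinearGroup (Fin 2) F) : g⁻¹ 1 1 = g 0 0 := by simp [adjugate_fin_two]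

theorem tr_conj (g A : Matrix.SpecialLinearGroup (Fin 2) F) :
    (g * A * g⁻¹ : Matrix.SpecialLinearGroup (Fin 2) F) 0 0 + (g * A * g⁻¹ : Matrix.SpecialLinearGroup (Fin 2) F) 1 1 =
      A 0 0 + A 1 1 := by
  have hdet := det2 g
  simp only [coe_mul', inv00, inv01, inv10, inv11]
  linear_combination (A 0 0 + A 1 1) * hdet

/-- elements of the Borel subgroup commuting with a unipotent element -/
theorem comm_xx {s : F} (hs : s ≠ 0) {g : Matrix.SpecialLinearGroup (Fin 2) F}
    (h : pr g * pr (xx s) = pr (xx s) * pr g) : ∃ t, pr g = pr (xx t) := by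
  rw [← map_mul, ← map_mul, pr_eq_iff] at h
  have hdet := det2 g
  have key : g * xx s = xx s * g → ∃ t, pr g = pr (xx t) := by
    intro h
    have e10 := congrArg (fun A : Matrix.SpecialLinearGroup (Fin 2) F => A 0 0) h
    have e01 := congrArg (fun A : Matrix.SpecialLinearGroup (Fin 2) F => A 0 1) h
    simp only [coe_mul', xx00, xx01, xx10, xx11] at e10 e01
    have h10 : g 1 0 = 0 := by
      have : s * g 1 0 = 0 := by linear_combination -e10
      exact (mul_eq_zero.1 this).resolve_left hs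
    have h11 : g 0 0 = g 1 1 := by
      have : s * (g 0 0 - g 1 1) = 0 := by linear_combination e01
      exact sub_eq_zero.1 ((mul_eq_zero.1 this).resolve_left hs)
    have hsq : g 0 0 = 1 ∨ g 0 0 = -1 := by
      rw [← sq_eq_one_iff]
      linear_combination hdet - g 0 0 * (h11.symm.trans rfl) + g 0 1 * h10
    rcases hsq with h1 | h1
    · refine ⟨g 0 1, pr_eq_iff.2 (Or.inl (sl_ext2 ?_ ?_ ?_ ?_))⟩
      · rw [h1, xx00]
      · rw [xx01]
      · rw [h10, xx10]
      · rw [← h11, h1, xx11]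
    · refine ⟨-g 0 1, pr_eq_iff.2 (Or.inr (sl_ext2 ?_ ?_ ?_ ?_))⟩
      · rw [h1, coe_neg', xx00]
      · rw [coe_neg', xx01, neg_neg]
      · rw [h10, coe_neg', xx10, neg_zero]
      · rw [← h11, h1, coe_neg', xx11]
  rcases h with h | h
  · exact key h
  · -- the trace
    have h1 : g * xx s * g⁻¹ = -xx s := by
      rw [h, neg_mul, mul_inv_cancel_right]
    have h2 := tr_conj g (xx s)
    rw [h1] at h2
    simp only [coe_neg', xx00, xx11] at h2
    have h4 : (2 : F) * 2 = 0 := by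
      linear_combination -h2
    have h5 : (2 : F) = 0 := by simpa using h4
    have hneg : ∀ A : Matrix.SpecialLinearGroup (Fin 2) F, -A = A := by
      intro A
      refine sl_ext2 ?_ ?_ ?_ ?_ <;> rw [coe_neg'] <;> linear_combination (-A _ _) * h5
    rw [hneg] at h
    exact key h

/-- elements of the Borel subgroup commuting with a torus element -/
theorem comm_dd {s : F} {a : Fˣ} (ha : a ^ 2 ≠ 1) (h : pr (dd a) * pr (xx s) = pr (xx s) * pr (dd a)) : s = 0 := by
  rw [← map_mul, ← map_mul, pr_eq_iff] at h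
  have ha0 : (a : F) ≠ 0 := a.ne_zero
  have hinv : (a : F) * ((a⁻¹ : Fˣ) : F) = 1 := by simp
  have key : ∀ e : F, e * e = 1 → (a : F) = e * a → (a : F) * s = e * (s * ((a⁻¹ : Fˣ) : F)) → s = 0 := by
    intro e _ h1 h2
    have h3 : e = 1 := by
      have : (e - 1) * a = 0 := by linear_combination -h1
      exact sub_eq_zero.1 ((mul_eq_zero.1 this).resolve_right ha0)
    subst h3
    by_contra hs
    apply ha
    apply Units.ext
    have h4 : s * ((a : F) ^ 2 - 1) = 0 := by linear_combination (a : F) * h2 + s * hinv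
    have h5 := sub_eq_zero.1 ((mul_eq_zero.1 h4).resolve_left hs)
    simpa only [_root_.Units.val_pow_eq_pow_val, _root_.Units.val_one, _root_.sq_eq_one_iff, _root_.Units.val_eq_one, _root_.Units.val_eq_neg_one] using h5
  rcases h with h | h
  · have e00 := congrArg (fun A : Matrix.SpecialLinearGroup (Fin 2) F => A 0 0) h
    have e01 := congrArg (fun A : Matrix.SpecialLinearGroup (Fin 2) F => A 0 1) h
    simp only [coe_mul', xx00, xx01, xx10, xx11, dd00, dd01, dd10, dd11] at e00 e01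
    exact key 1 (by ring) (by ring) (by linear_combination e01)
  · have e00 := congrArg (fun A : Matrix.SpecialLinearGroup (Fin 2) F => A 0 0) h
    have e01 := congrArg (fun A : Matrix.SpecialLinearGroup (Fin 2) F => A 0 1) h
    simp only [coe_neg', coe_mul', xx00, xx01, xx10, xx11, dd00, dd01, dd10, dd11] at e00 e01
    exact key (-1) (by ring) (by linear_combination e00) (by linear_combination e01)

theorem ww_dd (a : Fˣ) : (ww F)⁻¹ * dd a * ww F = dd a⁻¹ := by
  rw [mul_assoc, inv_mul_eq_iff_eq_mul]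
  exact sl_ext2 (by simp [coe_mul']) (by simp [coe_mul']) (by simp [coe_mul']) (by simp [coe_mul'])

theorem pair_psl [Finite F] (p : ℕ) [hp : Fact p.Prime] [CharP F p] {r : ℕ} [hr : Fact r.Prime] (hr2 : r ≠ 2)
    (hrd : r ∣ Nat.card Fˣ) : Pair p r (Matrix.ProjectiveSpecialLinearGroup (Fin 2) F) := by
  have := Fintype.ofFinite F
  obtain ⟨P, hP⟩ := exists_sylow (F := F) 2 p
  obtain ⟨ζ, hζ⟩ := exists_prime_orderOf_dvd_card' r hrd
  have hpow : ∀ n : ℕ, ζ ^ n = 1 ↔ r ∣ n := by
    intro n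
    rw [← hζ]
    exact orderOf_dvd_iff_pow_eq_one.symm
  have h2 : ζ ^ 2 ≠ 1 := by
    rw [Ne, hpow]
    exact fun h => hr2 ((Nat.prime_dvd_prime_iff_eq hr.1 Nat.prime_two).1 h)
  have h4 : ζ ^ 4 ≠ 1 := by
    rw [Ne, hpow]
    exact fun h => hr2 ((Nat.prime_dvd_prime_iff_eq hr.1 Nat.prime_two).1
      (hr.1.dvd_of_dvd_pow (show r ∣ 2 ^ 2 from h)))
  have hrp : r ≠ p := by
    rintro rfl
    have hF := FiniteField.card F r
    obtain ⟨n, -, hn⟩ := hF
    rw [Nat.card_units, Nat.card_eq_fintype_card, hn] at hrd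
    have h5 : r ∣ r ^ (n : ℕ) := dvd_pow_self r n.ne_zero
    have h6 := (Nat.dvd_sub_iff_right (Nat.one_le_pow _ _ hr.1.pos) h5).1 hrd
    exact hr.1.one_lt.ne' (Nat.dvd_one.1 h6)
  have hddn : ∀ a b : Fˣ, pr (dd a) = pr (dd b) → (a * b⁻¹) ^ 2 = 1 := by
    intro a b h
    have hb0 : (b : F) ≠ 0 := b.ne_zero
    apply Units.ext
    rcases pr_eq_iff.1 h with h | h
    · have e := congrArg (fun A : Matrix.SpecialLinearGroup (Fin 2) F => A 0 0) h
      simp only [dd00] at e
      simp [e]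
    · have e := congrArg (fun A : Matrix.SpecialLinearGroup (Fin 2) F => A 0 0) h
      simp only [coe_neg', dd00] at e
      simp only [e, _root_.Units.val_pow_eq_pow_val, _root_.Units.val_mul, _root_.Units.val_inv_eq_inv_val, _root_.neg_mul, _root_.ne_eq, _root_.Units.ne_zero, _root_.not_false_eq_true, _root_.mul_inv_cancel₀, _root_.even_two, _root_.Even.neg_pow, _root_.one_pow, _root_.Units.val_one]
  refine pair_of_bn P (TT F) (pr (ww F)) (pr (dd ζ)) ?_ ?_ ?_ ?_ ?_ ?_ ?_ hr2 hrp ⟨ζ, rfl⟩ ?_ ?_ ?_ ?_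
  · rintro _ ⟨a, rfl⟩
    rw [hP, norm_iff, dd10]
  · rintro _ ⟨a, rfl⟩ ha
    rw [hP, pr_mem_iff] at ha
    obtain ⟨s, h | h⟩ := ha
    · have e := congrArg (fun A : Matrix.SpecialLinearGroup (Fin 2) F => A 0 0) h
      simp only [dd00, xx00] at e
      have e1 : a = 1 := Units.ext e
      rw [e1, dd_one, map_one]
    · have e := congrArg (fun A : Matrix.SpecialLinearGroup (Fin 2) F => A 0 0) h
      simp only [coe_neg', dd00, xx00] at e
      have e1 : a = -1 := Units.ext (by simpa using e)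
      rw [← map_one pr, pr_eq_iff]
      right
      rw [e1]
      exact sl_ext2 (by simp) (by simp) (by simp) (by simp)
  · intro g
    obtain ⟨g, rfl⟩ := pr_surjective g
    rcases bruhat g with ⟨s, a, rfl⟩ | ⟨s, t, a, rfl⟩
    · left
      exact ⟨pr (xx s), by rw [hP]; exact mem_map_upper.2 ⟨s, rfl⟩, pr (dd a), ⟨a, rfl⟩, map_mul _ _ _⟩
    · right
      exact ⟨pr (xx s), by rw [hP]; exact mem_map_upper.2 ⟨s, rfl⟩, pr (xx t),
        by rw [hP]; exact mem_map_upper.2 ⟨t, rfl⟩, pr (dd a), ⟨a, rfl⟩, by simp only [map_mul]⟩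
  · intro x hx hw
    rw [hP] at hx hw
    obtain ⟨s, rfl⟩ := mem_map_upper.1 hx
    rw [← map_inv, ← map_mul, ← map_mul, norm_iff] at hw
    simp only [coe_mul', inv10, inv11, ww00, ww10, xx00, xx01, xx10, xx11] at hw
    have hs : s = 0 := by linear_combination -hw
    rw [hs, xx_zero, map_one]
  · rw [← map_inv, ← map_mul, ← map_mul, ww_dd]
    exact ⟨_, rfl⟩
  · rw [hP, norm_iff, ww10]
    exact neg_ne_zero.2 one_ne_zero
  · refine orderOf_eq_prime ?_ ?_
    · rw [← map_pow, dd_pow, ← hζ, pow_orderOf_eq_one, dd_one, map_one]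
    · intro h
      rw [← map_one pr, ← dd_one] at h
      have := hddn _ _ h
      rw [inv_one, mul_one] at this
      exact h2 this
  · rintro _ ⟨a, rfl⟩
    rw [← map_mul, ← map_mul, dd_mul, dd_mul, mul_comm]
  · intro a ha h
    rw [hP] at ha
    obtain ⟨s, rfl⟩ := mem_map_upper.1 ha
    rw [comm_dd h2 h, xx_zero, map_one]
  · rw [← map_inv, ← map_mul, ← map_mul, ww_dd]
    intro h
    have h5 := hddn _ _ h
    apply h4
    have h6 : (ζ⁻¹ * ζ⁻¹) ^ 2 = (ζ ^ 4)⁻¹ := by
      rw [← pow_two, ← pow_mul, inv_pow]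
    rw [h6, inv_eq_one] at h5
    exact h5
  · refine ⟨pr (xx 1), by rw [hP]; exact mem_map_upper.2 ⟨1, rfl⟩, ?_⟩
    rw [← map_one pr, Ne, pr_eq_iff]
    rintro (h | h)
    · have e := congrArg (fun A : Matrix.SpecialLinearGroup (Fin 2) F => A 0 1) h
      simp at e
    · have e := congrArg (fun A : Matrix.SpecialLinearGroup (Fin 2) F => A 0 1) h
      simp at e

end Cfsg.Agent.H480.PslTwo
end

-- part: H480/PslTwoOut
section
/-!
# Nilpotent minimal covers: `PSL₂(q)`, outer automorphisms of even order (helper480, S3925, S3926)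
-/

set_option autoImplicit false

namespace Cfsg.Agent.H480.PslTwo

open Subgroup Matrix
open Cfsg.Agent.ClassicalGeometry.AutPSL.Root Cfsg.Agent.ClassicalGeometry.AutPSL.Auto
  Cfsg.Agent.ClassicalGeometry.AutPSL.Main
open Cfsg.Agent.ClassicalGeometry.AutPSL.SylowU

universe u v

variable {F : Type v} [Field F]

/-- conjugation with a matrix whose determinant is a square is inner -/
theorem inner_of_sq (A : GL (Fin 2) F) (hA : IsSquare (A : Matrix (Fin 2) (Fin 2) F).det) :
    ∃ B : Matrix.SpecialLinearGroup (Fin 2) F, lift (cj A) = MulAut.conj (pr B) := by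
  obtain ⟨c, hc⟩ := hA
  have hd : (A : Matrix (Fin 2) (Fin 2) F).det ≠ 0 := by
    have h1 := (Matrix.isUnit_iff_isUnit_det _).1 A.isUnit
    exact h1.ne_zero
  have hc0 : c ≠ 0 := by
    rintro rfl
    rw [mul_zero] at hc
    exact hd hc
  have hdet : (c⁻¹ • (A : Matrix (Fin 2) (Fin 2) F)).det = 1 := by
    rw [det_smul, hc, Fintype.card_fin]
    field_simp
  obtain ⟨B, hB⟩ : ∃ B : Matrix.SpecialLinearGroup (Fin 2) F, B.1 = c⁻¹ • (A : Matrix (Fin 2) (Fin 2) F) :=
    ⟨⟨_, hdet⟩, rfl⟩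
  refine ⟨B, ?_⟩
  apply MulEquiv.ext
  intro x
  obtain ⟨x, rfl⟩ := pr_surjective x
  rw [lift_pr, MulAut.conj_apply, ← map_inv, ← map_mul, ← map_mul]
  congr 1
  rw [eq_mul_inv_iff_mul_eq]
  apply Subtype.ext
  change (A : Matrix (Fin 2) (Fin 2) F) * x.1 * ((A⁻¹ : GL (Fin 2) F) : Matrix (Fin 2) (Fin 2) F) * B.1 =
    B.1 * x.1
  rw [hB, mul_smul_comm, smul_mul_assoc, mul_assoc, ← Units.val_mul, inv_mul_cancel, Units.val_one, mul_one]

/-- inner automorphisms -/
theorem conj_pr (B : Matrix.SpecialLinearGroup (Fin 2) F) :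
    MulAut.conj (pr B) = lift (cj (Matrix.SpecialLinearGroup.toGL B)) := by
  apply MulEquiv.ext
  intro x
  obtain ⟨x, rfl⟩ := pr_surjective x
  rw [lift_pr, MulAut.conj_apply, ← map_inv, ← map_mul, ← map_mul]
  congr 1

theorem cj_fld_eq {A B : GL (Fin 2) F} {σ τ : F ≃+* F} (h : lift (cj A * fld σ) = lift (cj B * fld τ)) :
    σ = τ ∧ ∃ r : F, (A : Matrix (Fin 2) (Fin 2) F) = r • (B : Matrix (Fin 2) (Fin 2) F) := by
  have h1 : lift (cj (B⁻¹ * A) * fld σ) = lift (fld τ) := by
    rw [map_mul cj, mul_assoc, map_mul, h, ← map_mul, ← mul_assoc, ← map_mul, inv_mul_cancel, map_one, one_mul]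
  obtain ⟨⟨r, hr⟩, h2⟩ := injective_aux h1
  refine ⟨h2, r, ?_⟩
  have h3 : (A : Matrix (Fin 2) (Fin 2) F) = (B : Matrix (Fin 2) (Fin 2) F) * ((B⁻¹ * A : GL (Fin 2) F) : Matrix (Fin 2) (Fin 2) F) := by
    rw [← Units.val_mul, mul_inv_cancel_left]
  rw [h3, ← hr, scalar_apply, ← smul_eq_mul_diagonal]

/-- the determinant of the semilinear matrix modulo squares -/
theorem sq_of_eq {A B : GL (Fin 2) F} {σ τ : F ≃+* F} (h : lift (cj A * fld σ) = lift (cj B * fld τ)) :
    IsSquare (A : Matrix (Fin 2) (Fin 2) F).det ↔ IsSquare (B : Matrix (Fin 2) (Fin 2) F).det := by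
  have key : ∀ {A B : GL (Fin 2) F} {σ τ : F ≃+* F}, lift (cj A * fld σ) = lift (cj B * fld τ) →
      IsSquare (B : Matrix (Fin 2) (Fin 2) F).det → IsSquare (A : Matrix (Fin 2) (Fin 2) F).det := by
    intro A B σ τ h hB
    obtain ⟨-, r, hr⟩ := cj_fld_eq h
    rw [hr, det_smul, Fintype.card_fin, pow_two]
    exact (IsSquare.mul_self r).mul hB
  exact ⟨key h.symm, key h⟩

theorem cj_fld_mul (A B : GL (Fin 2) F) (σ τ : F ≃+* F) :
    lift (cj A * fld σ) * lift (cj B * fld τ) =
      lift (cj (A * Matrix.GeneralLinearGroup.map (σ : F →+* F) B) * fld (σ * τ)) := by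
  rw [← map_mul, map_mul cj, map_mul fld]
  congr 1
  rw [mul_assoc, ← mul_assoc (fld σ), Schreier.ClassPSL.fld_mul_cj]
  simp only [mul_assoc]

theorem det_mul_map (A B : GL (Fin 2) F) (σ : F ≃+* F) :
    ((A * Matrix.GeneralLinearGroup.map (σ : F →+* F) B : GL (Fin 2) F) : Matrix (Fin 2) (Fin 2) F).det =
      (A : Matrix (Fin 2) (Fin 2) F).det * σ ((B : Matrix (Fin 2) (Fin 2) F).det) := by
  rw [Units.val_mul, det_mul]
  congr 1
  have h : ((Matrix.GeneralLinearGroup.map (σ : F →+* F) B : GL (Fin 2) F) : Matrix (Fin 2) (Fin 2) F) =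
    (B : Matrix (Fin 2) (Fin 2) F).map (σ : F →+* F) := rfl
  rw [h, ← RingHom.mapMatrix_apply, ← RingHom.map_det]
  rfl

theorem isSquare_map (σ : F ≃+* F) {a : F} : IsSquare (σ a) ↔ IsSquare a := by
  constructor
  · rintro ⟨c, hc⟩
    refine ⟨σ.symm c, ?_⟩
    rw [← map_mul, ← hc, RingEquiv.symm_apply_apply]
  · rintro ⟨c, rfl⟩
    exact ⟨σ c, map_mul _ _ _⟩

/-- the semilinear automorphisms with square determinant -/
def PS (F : Type v) [Field F] : Subgroup (MulAut (Matrix.ProjectiveSpecialLinearGroup (Fin 2) F)) where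
  carrier := {α | ∃ (A : GL (Fin 2) F) (σ : F ≃+* F), IsSquare (A : Matrix (Fin 2) (Fin 2) F).det ∧
    α = lift (cj A * fld σ)}
  mul_mem' := by
    rintro _ _ ⟨A, σ, hA, rfl⟩ ⟨B, τ, hB, rfl⟩
    refine ⟨_, _, ?_, cj_fld_mul A B σ τ⟩
    rw [det_mul_map]
    exact hA.mul ((isSquare_map σ).2 hB)
  one_mem' := ⟨1, 1, by rw [Units.val_one, det_one]; exact ⟨1, by ring⟩, by simp only [_root_.map_one, _root_.mul_one]⟩
  inv_mem' := by
    rintro _ ⟨A, σ, hA, rfl⟩
    refine ⟨Matrix.GeneralLinearGroup.map ((σ⁻¹ : F ≃+* F) : F →+* F) A⁻¹, σ⁻¹, ?_, ?_⟩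
    · have h := det_mul_map 1 A⁻¹ σ⁻¹
      rw [one_mul, Units.val_one, det_one, one_mul] at h
      rw [h, isSquare_map]
      have h1 : (A : Matrix (Fin 2) (Fin 2) F).det * ((A⁻¹ : GL (Fin 2) F) : Matrix (Fin 2) (Fin 2) F).det = 1 := by
        rw [← det_mul, ← Units.val_mul, mul_inv_cancel, Units.val_one, det_one]
      obtain ⟨c, hc⟩ := hA
      have hc0 : c ≠ 0 := by
        rintro rfl
        rw [hc, mul_zero, zero_mul] at h1
        exact zero_ne_one h1
      refine ⟨c⁻¹, ?_⟩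
      rw [hc] at h1
      have h2 : c * c ≠ 0 := mul_ne_zero hc0 hc0
      apply mul_left_cancel₀ h2
      rw [h1]
      field_simp
    · rw [inv_eq_iff_mul_eq_one, cj_fld_mul, mul_inv_cancel, map_one, mul_one]
      have h : Matrix.GeneralLinearGroup.map (σ : F →+* F)
          (Matrix.GeneralLinearGroup.map ((σ⁻¹ : F ≃+* F) : F →+* F) A⁻¹) = A⁻¹ := by
        ext i j
        change σ (σ.symm _) = _
        exact σ.apply_symm_apply _
      rw [h, mul_inv_cancel, map_one, map_one]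

theorem mem_PS {A : GL (Fin 2) F} {σ : F ≃+* F} :
    lift (cj A * fld σ) ∈ PS F ↔ IsSquare (A : Matrix (Fin 2) (Fin 2) F).det := by
  constructor
  · rintro ⟨B, τ, hB, h⟩
    exact (sq_of_eq h).2 hB
  · intro h
    exact ⟨A, σ, h, rfl⟩

/-- the trace is invariant -/
theorem tr_cj (A : GL (Fin 2) F) (x : Matrix.SpecialLinearGroup (Fin 2) F) :
    (cj A x) 0 0 + (cj A x) 1 1 = x 0 0 + x 1 1 := by
  have h1 : Matrix.trace (cj A x).1 = Matrix.trace x.1 := by
    change Matrix.trace ((A : Matrix (Fin 2) (Fin 2) F) * x.1 * ((A⁻¹ : GL (Fin 2) F) : Matrix (Fin 2) (Fin 2) F)) = _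
    rw [Matrix.trace_mul_comm, ← mul_assoc, ← Units.val_mul, inv_mul_cancel, Units.val_one, one_mul]
  rw [trace_fin_two, trace_fin_two] at h1
  exact h1

/-- **No diagonal automorphism.** -/
theorem no_diag [Finite F] (p : ℕ) [hp : Fact p.Prime] [CharP F p] {G : Type u} [Group G] [Finite G] {K : Subgroup G}
    [hK : K.Normal] (hs : IsSimpleGroup ↥K) (hna : ¬ IsMulCommutative ↥K) (hc : centralizer (K : Set G) = ⊥)
    (f : Matrix.ProjectiveSpecialLinearGroup (Fin 2) F ≃* ↥K) {𝓐 : Finset (Subgroup G)} (hA : NMC 𝓐) {g : G}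
    {A : GL (Fin 2) F} (hg : act f g = lift (cj A)) : g ∈ K := by
  have := Fintype.ofFinite F
  by_contra hgK
  have hsq : ¬ IsSquare (A : Matrix (Fin 2) (Fin 2) F).det := by
    intro h
    obtain ⟨B, hB⟩ := inner_of_sq A h
    exact hgK (act_mem f hc (hg.trans hB))
  have hg' : act f g = lift (cj A * fld 1) := by rw [hg, map_one, mul_one]
  have hodd : p ≠ 2 := by
    rintro rfl
    apply hsq
    exact FiniteField.isSquare_of_char_two (ringChar.eq F 2) _
  have h2 : (2 : F) ≠ 0 := by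
    intro h
    have h1 : ((2 : ℕ) : F) = 0 := by exact_mod_cast h
    rw [CharP.cast_eq_zero_iff F p] at h1
    exact hodd ((Nat.prime_dvd_prime_iff_eq hp.1 Nat.prime_two).1 h1)
  set N : Subgroup G := (PS F).comap (act f) with hN
  have hi : N.index = 2 := by
    rw [index_eq_two_iff]
    refine ⟨g, fun b => ?_⟩
    obtain ⟨B, τ, hB⟩ := surj_two p (act f b)
    have h1 : b ∈ N ↔ IsSquare (B : Matrix (Fin 2) (Fin 2) F).det := by
      rw [hN, mem_comap, hB, mem_PS]
    have h3 : b * g ∈ N ↔ IsSquare ((B : Matrix (Fin 2) (Fin 2) F).det * τ ((A : Matrix (Fin 2) (Fin 2) F).det)) := by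
      rw [hN, mem_comap, map_mul, hB, hg', cj_fld_mul, mem_PS, det_mul_map]
    rw [h1, h3]
    by_cases h4 : IsSquare (B : Matrix (Fin 2) (Fin 2) F).det
    · right
      refine ⟨h4, fun h5 => ?_⟩
      apply hsq
      rw [← isSquare_map τ]
      obtain ⟨c, hc⟩ := h4
      obtain ⟨d, hd⟩ := h5
      have hB0 : (B : Matrix (Fin 2) (Fin 2) F).det ≠ 0 := ((Matrix.isUnit_iff_isUnit_det _).1 B.isUnit).ne_zero
      have hc0 : c ≠ 0 := by
        rintro rfl
        rw [mul_zero] at hc
        exact hB0 hc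
      refine ⟨d / c, ?_⟩
      rw [hc] at hd
      field_simp
      linear_combination hd
    · left
      refine ⟨ClassicalGeometry.DicksonSubfield.isSquare_mul_of_not h4 ?_, h4⟩
      rw [isSquare_map]
      exact hsq
  have hNn : N.Normal := normal_of_index_eq_two hi
  have hx1 : pr (xx (1 : F)) ≠ 1 := by
    rw [← map_one pr, Ne, pr_eq_iff]
    rintro (h | h)
    · have e := congrArg (fun A : Matrix.SpecialLinearGroup (Fin 2) F => A 0 1) h
      simp at e
    · have e := congrArg (fun A : Matrix.SpecialLinearGroup (Fin 2) F => A 0 1) h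
      simp at e
  have hxp : pr (xx (1 : F)) ^ p = 1 := by
    have h1 : ∀ n : ℕ, xx (1 : F) ^ n = xx (n : F) := by
      intro n
      induction n with
      | zero => rw [pow_zero, Nat.cast_zero, xx_zero]
      | succ n ih => rw [pow_succ, ih, xx_mul, Nat.cast_succ]
    rw [← map_pow, h1, CharP.cast_eq_zero, xx_zero, map_one]
  obtain ⟨h, hhN, -, hh⟩ := hA.exists_outside (no_nilpotent_normal K hs hna hc) N Nat.prime_two hi
    (y := (f (pr (xx (1 : F))) : G)) (by
      intro h
      apply hx1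
      apply f.injective
      apply Subtype.ext
      rw [h, map_one, coe_one]) (by
      refine Nat.Coprime.coprime_dvd_left (orderOf_dvd_of_pow_eq_one (n := p) ?_) ?_
      · rw [← SubgroupClass.coe_pow, ← map_pow, hxp, map_one, coe_one]
      · exact (Nat.coprime_primes hp.1 Nat.prime_two).2 hodd)
  apply hhN
  obtain ⟨B, τ, hB⟩ := surj_two p (act f h)
  rw [hN, mem_comap, hB, mem_PS]
  have h3 := act_comm f hh
  rw [hB, lift_pr, MulAut.mul_apply] at h3
  have h4 : fld τ (xx (1 : F)) = xx 1 := by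
    ext i j
    rw [coe_fld_apply]
    (revert i j; simp only [_root_.Fin.forall_fin_succ, Fin.isValue, _root_.Fin.succ_zero_eq_one, _root_.IsEmpty.forall_iff, _root_.and_true, _root_.Cfsg.Agent.H480.PslTwo.xx00, _root_.map_one, _root_.Cfsg.Agent.H480.PslTwo.xx01, _root_.and_self, _root_.Cfsg.Agent.H480.PslTwo.xx10, _root_.map_zero, _root_.Cfsg.Agent.H480.PslTwo.xx11])
  rw [h4, pr_eq_iff] at h3
  have h5 : cj B (xx 1) = xx 1 := by
    rcases h3 with h3 | h3
    · exact h3
    · exfalso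
      have h6 := tr_cj B (xx 1)
      rw [h3] at h6
      simp only [coe_neg', xx00, xx11] at h6
      have h7 : (2 : F) * 2 = 0 := by linear_combination -h6
      rcases mul_eq_zero.1 h7 with h7 | h7
      · exact h2 h7
      · exact h2 h7
  have h6 : (B : Matrix (Fin 2) (Fin 2) F) * (xx (1 : F)).1 = (xx (1 : F)).1 * (B : Matrix (Fin 2) (Fin 2) F) := by
    have h7 : (B : Matrix (Fin 2) (Fin 2) F) * (xx (1 : F)).1 * ((B⁻¹ : GL (Fin 2) F) : Matrix (Fin 2) (Fin 2) F) =
      (xx (1 : F)).1 := congrArg Subtype.val h5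
    rw [← h7, mul_assoc _ _ (B : Matrix (Fin 2) (Fin 2) F), ← Units.val_mul, inv_mul_cancel, Units.val_one, mul_one, h7]
  have e00 := congrFun (congrFun h6 0) 0
  have e01 := congrFun (congrFun h6 0) 1
  simp only [Matrix.mul_apply, Fin.sum_univ_two] at e00 e01
  have v00 : (xx (1 : F)).1 0 0 = 1 := rfl
  have v01 : (xx (1 : F)).1 0 1 = 1 := rfl
  have v10 : (xx (1 : F)).1 1 0 = 0 := rfl
  have v11 : (xx (1 : F)).1 1 1 = 1 := rfl
  rw [v00, v01, v10] at e00
  rw [v00, v01, v11] at e01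
  rw [det_fin_two]
  have e10 : (B : Matrix (Fin 2) (Fin 2) F) 1 0 = 0 := by linear_combination -e00
  have e11 : (B : Matrix (Fin 2) (Fin 2) F) 1 1 = (B : Matrix (Fin 2) (Fin 2) F) 0 0 := by linear_combination -e01
  rw [e10, e11, mul_zero, sub_zero]
  exact ⟨_, rfl⟩

/-- the fixed field of a nontrivial automorphism is small -/
theorem card_fixed_sq_le [Finite F] {σ : F ≃+* F} (hσ : σ ≠ 1) :
    Nat.card {x : F // σ x = x} ^ 2 ≤ Nat.card F := by
  let F₀ : Subfield F := RingHom.eqLocusField (σ : F →+* F) (RingHom.id F)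
  have h0 : Nat.card {x : F // σ x = x} = Nat.card F₀ := rfl
  have h1 : Nat.card F = Nat.card F₀ ^ Module.finrank F₀ F := Module.natCard_eq_pow_finrank
  have hF₀ : F₀ ≠ ⊤ := by
    intro h
    apply hσ
    ext x
    have h2 : x ∈ F₀ := by rw [h]; exact Subfield.mem_top x
    exact h2
  have h2 : 2 ≤ Module.finrank F₀ F := by
    have h3 : 0 < Module.finrank F₀ F := Module.finrank_pos
    by_contra h4
    have h5 : Module.finrank F₀ F = 1 := by omega
    rw [h5, pow_one] at h1
    apply hF₀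
    rw [eq_top_iff]
    intro x _
    have h6 : Function.Surjective (Subtype.val : F₀ → F) := by
      have := (Nat.bijective_iff_injective_and_card (Subtype.val : F₀ → F)).2 ⟨Subtype.val_injective, h1.symm⟩
      exact this.2
    obtain ⟨y, rfl⟩ := h6 x
    exact y.2
  rw [h0]
  conv_rhs => rw [h1]
  exact Nat.pow_le_pow_right Nat.card_pos h2

/-- a cyclic group of order `q + 1` is not in a proper subfield -/
theorem trace_not_fixed [Finite F] {σ : F ≃+* F} (hσ : σ ≠ 1) {a y : Matrix.SpecialLinearGroup (Fin 2) F}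
    (ha : orderOf a = Nat.card F + 1) (hy : a ∈ zpowers y ∨ -a ∈ zpowers y) :
    σ (y 0 0 + y 1 1) ≠ y 0 0 + y 1 1 := by
  intro hfix
  let W : Set (Matrix (Fin 2) (Fin 2) F) :=
    Set.range (fun u : {x : F // σ x = x} × {x : F // σ x = x} =>
      (u.1.1 • (1 : Matrix (Fin 2) (Fin 2) F) + u.2.1 • y.1))
  have hW1 : W.ncard ≤ Nat.card F := by
    have h1 : W.ncard ≤ Nat.card ({x : F // σ x = x} × {x : F // σ x = x}) := by
      have h2 := Finite.card_range_le (fun u : {x : F // σ x = x} × {x : F // σ x = x} =>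
        (u.1.1 • (1 : Matrix (Fin 2) (Fin 2) F) + u.2.1 • y.1))
      exact h2
    rw [Nat.card_prod, ← pow_two] at h1
    exact h1.trans (card_fixed_sq_le hσ)
  have hneg : ∀ M ∈ W, -M ∈ W := by
    rintro _ ⟨⟨⟨u, hu⟩, ⟨v, hv⟩⟩, rfl⟩
    refine ⟨⟨⟨-u, by rw [map_neg, hu]⟩, ⟨-v, by rw [map_neg, hv]⟩⟩, ?_⟩
    simp only [neg_smul, neg_add]
  have hdet := det2 y
  have hCH : y.1 * y.1 = (y 0 0 + y 1 1) • y.1 - 1 := by
    ext i j
    (revert i j; simp only [Matrix.mul_apply, Fin.sum_univ_two, _root_.Fin.forall_fin_succ, Fin.isValue, _root_.Matrix.sub_apply, _root_.Matrix.smul_apply, _root_.smul_eq_mul, _root_.Fin.succ_zero_eq_one, _root_.IsEmpty.forall_iff, _root_.and_true, _root_.Matrix.one_apply_eq, Nat.reduceAdd, _root_.ne_eq, _root_.zero_ne_one, _root_.not_false_eq_true, _root_.Matrix.one_apply_ne, _root_.sub_zero, _root_.Fin.succ_ne_zero]) <;> (repeat' with_reducible apply And.intro) <;> first | linear_combination -hdet | ring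
  have hpow : ∀ n : ℕ, (y ^ n).1 ∈ W := by
    intro n
    induction n with
    | zero => exact ⟨⟨⟨1, map_one σ⟩, ⟨0, map_zero σ⟩⟩, by simp⟩
    | succ n ih =>
      obtain ⟨⟨⟨u, hu⟩, ⟨v, hv⟩⟩, h⟩ := ih
      refine ⟨⟨⟨-v, by rw [map_neg, hv]⟩, ⟨u + v * (y 0 0 + y 1 1), by rw [map_add, map_mul, hu, hv, hfix]⟩⟩, ?_⟩
      have h1 : (y ^ (n + 1)).1 = (y ^ n).1 * y.1 := by rw [pow_succ]; rfl
      rw [h1, ← h]
      change -v • (1 : Matrix (Fin 2) (Fin 2) F) + (u + v * (y 0 0 + y 1 1)) • y.1 = (u • 1 + v • y.1) * y.1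
      rw [add_mul, smul_mul_assoc, smul_mul_assoc, one_mul, hCH, smul_sub, smul_smul, add_smul, neg_smul]
      abel
  have hzp : ∀ z ∈ zpowers y, z.1 ∈ W := by
    intro z hz
    obtain ⟨n, rfl⟩ := mem_powers_iff_mem_zpowers.2 hz
    exact hpow n
  have hall : ∀ z ∈ zpowers a, z.1 ∈ W := by
    intro z hz
    obtain ⟨n, rfl⟩ := mem_powers_iff_mem_zpowers.2 hz
    rcases hy with h | h
    · exact hzp _ (pow_mem h n)
    · have h1 := hzp _ (pow_mem h n)
      rcases Nat.even_or_odd n with h2 | h2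
      · rw [h2.neg_pow] at h1
        exact h1
      · rw [h2.neg_pow] at h1
        have h3 := hneg _ h1
        have h4 : -(-a ^ n : Matrix.SpecialLinearGroup (Fin 2) F).1 = (a ^ n).1 := by
          rw [show (-a ^ n : Matrix.SpecialLinearGroup (Fin 2) F).1 = -(a ^ n).1 from rfl, neg_neg]
        rw [h4] at h3
        exact h3
  have h1 : Nat.card (zpowers a) ≤ W.ncard := by
    have h2 : ((fun z : Matrix.SpecialLinearGroup (Fin 2) F => z.1) ''
        (zpowers a : Set (Matrix.SpecialLinearGroup (Fin 2) F))).ncard ≤ W.ncard := by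
      refine Set.ncard_le_ncard ?_ (Set.toFinite _)
      rintro _ ⟨z, hz, rfl⟩
      exact hall z hz
    have hinj : Function.Injective (fun z : Matrix.SpecialLinearGroup (Fin 2) F => z.1) :=
      fun _ _ h => Subtype.ext h
    rw [Set.ncard_image_of_injective _ hinj] at h2
    exact h2
  rw [Nat.card_zpowers, ha] at h1
  omega

/-- **No field automorphism of even order.** -/
theorem no_field [Finite F] (h4 : 4 ≤ Nat.card F) {G : Type u} [Group G] [Finite G]
    {K : Subgroup G} [hK : K.Normal] (hs : IsSimpleGroup ↥K) (hna : ¬ IsMulCommutative ↥K)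
    (hc : centralizer (K : Set G) = ⊥) (hcyc : IsCyclic (G ⧸ K))
    (f : Matrix.ProjectiveSpecialLinearGroup (Fin 2) F ≃* ↥K) {𝓐 : Finset (Subgroup G)} (hA : NMC 𝓐) :
    Odd K.index := by
  have := Fintype.ofFinite F
  obtain ⟨p, hp⟩ := CharP.exists F
  have hpf : Fact p.Prime := ⟨CharP.char_is_prime F p⟩
  by_contra hodd
  rw [Nat.not_odd_iff_even, even_iff_two_dvd] at hodd
  obtain ⟨N, hN, hKN, hi⟩ := exists_index_of_cyclic K hcyc Nat.prime_two hodd
  obtain ⟨a, -, ha, -, -, hneg, -, -⟩ := ClassicalGeometry.NonsplitTorus.exists_torus_TI F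
  have hne : ∀ {g : G} {A : GL (Fin 2) F} {σ : F ≃+* F}, g ∉ K → act f g = lift (cj A * fld σ) → σ ≠ 1 := by
    rintro g A σ hg h rfl
    rw [map_one, mul_one] at h
    exact hg (no_diag p hs hna hc f hA h)
  -- the field is a square
  have hsq : ∃ m, Nat.card F = m ^ 2 := by
    have h2f : Fact (Nat.Prime 2) := ⟨Nat.prime_two⟩
    obtain ⟨x, hx⟩ := exists_prime_orderOf_dvd_card' (G := G ⧸ K) 2 hodd
    obtain ⟨g, rfl⟩ := QuotientGroup.mk_surjective x
    have hg : g ∉ K := by
      intro h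
      rw [(QuotientGroup.eq_one_iff g).2 h, orderOf_one] at hx
      omega
    have hg2 : g * g ∈ K := by
      have h1 : ((g : G) : G ⧸ K) ^ 2 = 1 := by rw [← hx, pow_orderOf_eq_one]
      rw [← QuotientGroup.mk_pow, QuotientGroup.eq_one_iff, pow_two] at h1
      exact h1
    obtain ⟨A, σ, hAσ⟩ := surj_two p (act f g)
    have hσ := hne hg hAσ
    obtain ⟨s, hs'⟩ := (act_mem_iff f hc).1 hg2
    obtain ⟨s, rfl⟩ := pr_surjective s
    have h1 : lift (cj (A * Matrix.GeneralLinearGroup.map (σ : F →+* F) A) * fld (σ * σ)) =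
        lift (cj (Matrix.SpecialLinearGroup.toGL s) * fld 1) := by
      rw [← cj_fld_mul, ← hAσ, ← map_mul, hs', conj_pr, map_one, mul_one]
    have h2 : σ ^ 2 = 1 := by rw [pow_two]; exact (cj_fld_eq h1).1
    have h3 : orderOf σ = 2 := orderOf_eq_prime h2 hσ
    obtain ⟨n, -, hn⟩ := FiniteField.card F p
    have h5 := Lib.FieldAutCard.card_ringAut n.pos hn
    have h6 : 2 ∣ (n : ℕ) := by
      rw [← h5, ← h3]
      exact _root_.orderOf_dvd_natCard σ
    obtain ⟨m, hm⟩ := h6
    refine ⟨p ^ m, ?_⟩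
    rw [Nat.card_eq_fintype_card, hn, hm, ← pow_mul, mul_comm]
  have hcard : Nat.card F = Fintype.card F := Nat.card_eq_fintype_card
  -- the torus
  have hy : (a ∈ zpowers (a ^ 2) ∨ -a ∈ zpowers (a ^ 2)) ∧ ∃ n, Odd n ∧ (a ^ 2) ^ n = 1 := by
    by_cases h2 : (2 : F) = 0
    · have h3 : ¬ Odd (Fintype.card F) := fun h => (ClassicalGeometry.PSLTorus.two_ne_zero_iff_odd F).2 h h2
      rw [Nat.not_odd_iff_even] at h3
      refine ⟨Or.inl ?_, Fintype.card F + 1, h3.add_one, ?_⟩
      · obtain ⟨k, hk⟩ := h3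
        have h5 : a = (a ^ 2) ^ (k + 1) := by
          rw [← pow_mul, show 2 * (k + 1) = orderOf a + 1 by rw [ha]; omega, pow_succ, pow_orderOf_eq_one, one_mul]
        rw [h5]
        exact pow_mem (by
          rw [← h5]
          exact mem_zpowers _) _
      · rw [← pow_mul, mul_comm, pow_mul, ← ha, pow_orderOf_eq_one, one_pow]
    · have h3 : Odd (Fintype.card F) := (ClassicalGeometry.PSLTorus.two_ne_zero_iff_odd F).1 h2
      obtain ⟨m, hm⟩ := hsq
      rw [hcard] at hm
      have hmo : Odd m := by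
        rw [hm] at h3
        exact (Nat.odd_pow_iff two_ne_zero).1 h3
      obtain ⟨k, rfl⟩ := hmo
      have h5 : Fintype.card F + 1 = 2 * (2 * (k * k + k) + 1) := by rw [hm]; ring
      have h6 := ClassicalGeometry.PSLTorus.pow_half h2 a (2 * (k * k + k) + 1) (by rw [ha, h5]) hneg
      have h7 : -a = (a ^ 2) ^ (k * k + k + 1) := by
        rw [← pow_mul, show 2 * (k * k + k + 1) = (2 * (k * k + k) + 1) + 1 by ring, pow_succ, h6, neg_one_mul]
      refine ⟨Or.inr ?_, 2 * (k * k + k) + 1, ⟨_, rfl⟩, ?_⟩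
      · rw [h7]
        exact pow_mem (mem_zpowers _) _
      · rw [← pow_mul, ← h5, ← ha, pow_orderOf_eq_one]
  obtain ⟨hy, n, hn, hyn⟩ := hy
  have hy1 : pr (a ^ 2) ≠ 1 := by
    rw [← map_one pr, Ne, pr_eq_iff]
    intro h
    have h1 : a ^ 4 = 1 := by
      rw [show 4 = 2 * 2 from rfl, pow_mul]
      rcases h with h | h
      · rw [h, one_pow]
      · rw [h, neg_one_sq]
    have h2 := Nat.le_of_dvd (by norm_num) (orderOf_dvd_of_pow_eq_one h1)
    rw [ha] at h2
    omega
  obtain ⟨h, hhN, -, hh⟩ := hA.exists_outside (no_nilpotent_normal K hs hna hc) N Nat.prime_two hi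
    (y := (f (pr (a ^ 2)) : G)) (by
      intro h
      apply hy1
      apply f.injective
      apply Subtype.ext
      rw [h, map_one, coe_one]) (by
      refine Nat.Coprime.coprime_dvd_left (orderOf_dvd_of_pow_eq_one (n := n) ?_) hn.coprime_two_right
      rw [← SubgroupClass.coe_pow, ← map_pow, ← map_pow, hyn, map_one, map_one, coe_one])
  obtain ⟨B, τ, hB⟩ := surj_two p (act f h)
  have hτ := hne (fun h1 => hhN (hKN h1)) hB
  have h3 := act_comm f hh
  rw [hB, lift_pr, MulAut.mul_apply, pr_eq_iff] at h3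
  have h5 : cj B (fld τ (a ^ 2)) = a ^ 2 := by
    rcases h3 with h3 | h3
    · exact h3
    · have h6 : (cj B (fld τ (a ^ 2))) ^ n = 1 := by rw [← map_pow, ← map_pow, hyn, map_one, map_one]
      rw [h3, hn.neg_pow, hyn] at h6
      rw [h3]
      calc -(a ^ 2) = (-1) * (a ^ 2) := by rw [neg_one_mul]
        _ = a ^ 2 := by rw [h6, one_mul]
  refine trace_not_fixed hτ (by rw [ha, hcard]) hy ?_
  have h6 := tr_cj B (fld τ (a ^ 2))
  rw [h5] at h6
  rw [map_add, h6]
  rfl

end Cfsg.Agent.H480.PslTwo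
end
end
end
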